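import Cfsg.Agent.Spec.Aff

/-!
Minimal Frobenius groups `V ⋊ C_t` with `V` an elementary abelian `p`-group.
-/

set_option autoImplicit false

namespace Cfsg.Agent.Spec

/-- properties of a minimal non-abelian group `p^k : t` -/
structure IsMinFrob (p t : ℕ) (G : Type*) [Group G] : Prop where
  ord : ∀ x : G, orderOf x = 1 ∨ orderOf x = p ∨ orderOf x = t
  exp : ∃ x : G, orderOf x = p
  ext : ∃ x : G, orderOf x = t
  gen : ∀ H : Subgroup G, (∃ x ∈ H, orderOf x = p) → (∃ x ∈ H, orderOf x = t) → H = ⊤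
  nrm : ∀ N : Subgroup G, N.Normal → N ≠ ⊥ → ∀ x : G, x ^ t ∈ N
  mulp : ∀ x y : G, x ^ p = 1 → y ^ p = 1 → (x * y) ^ p = 1
  mult : ∃ x y : G, x ^ t = 1 ∧ y ^ t = 1 ∧ (x * y) ^ t ≠ 1

theorem minFrob_aux {p t : ℕ} (hp : p.Prime) (ht : t.Prime) (hpt : p ≠ t) {A C : Type*} [Group A]
    [Finite A] [Group C] (r : A →* C) (hker : ∀ x : A, r x = 1 → x ^ p = 1)
    (hout : ∀ x : A, r x ≠ 1 → orderOf x = t) 
    (hcomm : ∀ x y : A, r x ≠ 1 → r y = 1 → x * y = y * x → y = 1)
    (hep : ∃ x : A, orderOf x = p) (het : ∃ x : A, orderOf x = t) :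
    ∃ F : Subgroup A, IsMinFrob p t F := by
  classical
  have := Fact.mk hp
  have := Fact.mk ht
  have hin : ∀ x : A, x ^ p = 1 → r x = 1 := by
    intro x hx
    by_contra h
    have := orderOf_dvd_of_pow_eq_one hx
    rw [hout x h] at this
    exact hpt ((Nat.prime_dvd_prime_iff_eq ht hp).1 this).symm
  have hcr : ∀ x y : A, r y = 1 → r (x * (y * x⁻¹ * y⁻¹)) = 1 := by
    intro x y hy
    simp [hy]
  obtain ⟨F, ⟨⟨a, haF, ha⟩, ⟨b, hbF, hb⟩⟩, hmin⟩ := (wellFounded_lt (α := Subgroup A)).has_min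
    {H : Subgroup A | (∃ x ∈ H, orderOf x = p) ∧ (∃ x ∈ H, orderOf x = t)}
    ⟨⊤, by simpa using hep, by simpa using het⟩
  have har : r a = 1 := hin a (by rw [← ha, pow_orderOf_eq_one])
  have ha1 : a ≠ 1 := by
    rintro rfl
    rw [orderOf_one] at ha
    exact hp.one_lt.ne ha
  have hbr : r b ≠ 1 := by
    intro h
    have := orderOf_dvd_of_pow_eq_one (hker b h)
    rw [hb] at this
    exact hpt ((Nat.prime_dvd_prime_iff_eq ht hp).1 this).symm
  have hgen : ∀ H : Subgroup F, (∃ x ∈ H, orderOf x = p) → (∃ x ∈ H, orderOf x = t) → H = ⊤ := by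
    rintro H ⟨x, hx, hxo⟩ ⟨y, hy, hyo⟩
    have hle : H.map F.subtype ≤ F := Subgroup.map_subtype_le H
    have heq : H.map F.subtype = F := by
      by_contra hne
      exact hmin (H.map F.subtype)
        ⟨⟨x, Subgroup.mem_map_of_mem _ hx, by rw [Subgroup.orderOf_coe, hxo]⟩,
          ⟨y, Subgroup.mem_map_of_mem _ hy, by rw [Subgroup.orderOf_coe, hyo]⟩⟩
        (lt_of_le_of_ne hle hne)
    apply Subgroup.map_injective F.subtype_injective
    rw [heq, ← MonoidHom.range_eq_map, Subgroup.range_subtype]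
  have hordp : ∀ x : F, r x.1 = 1 → x ≠ 1 → orderOf x = p := by
    intro x hx h1
    exact orderOf_eq_prime (Subtype.ext (hker x.1 hx)) h1
  refine ⟨F, ?_, ⟨⟨a, haF⟩, by rw [← Subgroup.orderOf_coe, ha]⟩,
    ⟨⟨b, hbF⟩, by rw [← Subgroup.orderOf_coe, hb]⟩, hgen, ?_, ?_, ?_⟩
  · intro x
    by_cases hx : r x.1 = 1
    · by_cases h1 : x = 1
      · left; rw [h1, orderOf_one]
      · right; left; exact hordp x hx h1
    · right; right
      rw [← Subgroup.orderOf_coe, hout _ hx]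
  · intro N hN hN0 x
    -- `N` contains a nontrivial translation
    have h1 : ∃ n ∈ N, n ≠ 1 ∧ r n.1 = 1 := by
      obtain ⟨⟨n, hn⟩, hn1⟩ := (Subgroup.ne_bot_iff_exists_ne_one).1 hN0
      have hn1' : n ≠ 1 := fun h => hn1 (Subtype.ext h)
      by_cases hr : r n.1 = 1
      · exact ⟨n, hn, hn1', hr⟩
      · refine ⟨n * (⟨a, haF⟩ * n⁻¹ * ⟨a, haF⟩⁻¹), N.mul_mem hn (hN.conj_mem _ (N.inv_mem hn) _),
          ?_, ?_⟩
        · intro h
          apply ha1
          apply hcomm n.1 a hr har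
          have h' : n.1 * (a * n.1⁻¹ * a⁻¹) = 1 := congrArg Subtype.val h
          calc n.1 * a = n.1 * (a * n.1⁻¹ * a⁻¹) * (a * n.1) := by group
            _ = a * n.1 := by rw [h', one_mul]
        · exact hcr n.1 a har
    obtain ⟨n, hn, hn1, hnr⟩ := h1
    have htop := hgen (N ⊔ Subgroup.zpowers ⟨b, hbF⟩)
      ⟨n, Subgroup.mem_sup_left hn, hordp n hnr hn1⟩
      ⟨⟨b, hbF⟩, Subgroup.mem_sup_right (Subgroup.mem_zpowers _),
        by rw [← Subgroup.orderOf_coe, hb]⟩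
    have hx : x ∈ N ⊔ Subgroup.zpowers ⟨b, hbF⟩ := htop ▸ Subgroup.mem_top x
    rw [← QuotientGroup.eq_one_iff, QuotientGroup.mk_pow]
    have hx' : (x : F ⧸ N) ∈ (N ⊔ Subgroup.zpowers ⟨b, hbF⟩).map (QuotientGroup.mk' N) :=
      Subgroup.mem_map_of_mem _ hx
    rw [Subgroup.map_sup, QuotientGroup.map_mk'_self, bot_sup_eq, MonoidHom.map_zpowers] at hx'
    obtain ⟨k, hk⟩ := hx'
    have hbt : (⟨b, hbF⟩ : F) ^ t = 1 := by
      apply Subtype.ext
      rw [← hb]
      exact pow_orderOf_eq_one b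
    rw [← hk, ← zpow_natCast, ← zpow_mul, mul_comm, zpow_mul, zpow_natCast, ← map_pow, hbt,
      map_one, one_zpow]
  · intro x y hx hy
    apply Subtype.ext
    apply hker
    have h1 := hin x.1 (congrArg Subtype.val hx)
    have h2 := hin y.1 (congrArg Subtype.val hy)
    simp [h1, h2]
  · refine ⟨⟨b, hbF⟩, ⟨a, haF⟩ * ⟨b, hbF⟩⁻¹ * ⟨a, haF⟩⁻¹, ?_, ?_, ?_⟩
    · apply Subtype.ext
      rw [← hb]
      exact pow_orderOf_eq_one b
    · apply Subtype.ext
      have : b ^ t = 1 := by rw [← hb]; exact pow_orderOf_eq_one b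
      simp [conj_pow, this]
    · intro h
      have h1 : (⟨b, hbF⟩ * (⟨a, haF⟩ * ⟨b, hbF⟩⁻¹ * ⟨a, haF⟩⁻¹) : F) ≠ 1 := by
        intro h
        apply ha1
        apply hcomm b a hbr har
        have h' : b * (a * b⁻¹ * a⁻¹) = 1 := congrArg Subtype.val h
        calc b * a = b * (a * b⁻¹ * a⁻¹) * (a * b) := by group
          _ = a * b := by rw [h', one_mul]
      have := orderOf_dvd_of_pow_eq_one h
      rw [hordp _ (hcr b a har) h1] at this
      exact hpt ((Nat.prime_dvd_prime_iff_eq hp ht).1 this)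

theorem exists_minFrob (p t : ℕ) (hp : p.Prime) (ht : t.Prime) (hpt : p ≠ t) :
    ∃ (G : Type) (_ : Group G) (_ : Finite G), IsMinFrob p t G := by
  classical
  have := Fact.mk hp
  have := Fact.mk ht
  have hcop : Nat.Coprime p t := (Nat.coprime_primes hp ht).2 hpt
  obtain ⟨z, hz⟩ := exists_field_unit_order p t ht.ne_zero hcop
  let K := GaloisField p t.totient
  let A := Aff (Subgroup.zpowers z) K
  have hV : ∀ w : K, p • w = 0 := fun w => by rw [nsmul_eq_mul, CharP.cast_eq_zero, zero_mul]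
  have hf : ∀ (h : Subgroup.zpowers z) (v : K), h ≠ 1 → h • v = v → v = 0 := by
    intro h v h1 hv
    by_contra hv0
    apply h1
    apply Subtype.ext
    apply Units.ext
    have : ((h : Kˣ) : K) * v = v := hv
    exact mul_right_cancel₀ hv0 (by rw [this]; simp)
  have hct : ∀ h : Subgroup.zpowers z, h ^ t = 1 := by
    intro h
    have := pow_card_eq_one' (x := h)
    rwa [Nat.card_zpowers, hz] at this
  -- basic facts on `A`
  have hker : ∀ x : A, x.right = 1 → x ^ p = 1 := by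
    intro x hx
    obtain ⟨v, h, rfl⟩ := affMk_surj x
    rw [affMk_right] at hx
    subst hx
    rw [← orderOf_dvd_iff_pow_eq_one, orderOf_affMk_one]
    exact addOrderOf_dvd_of_nsmul_eq_zero (hV v)
  have hout : ∀ x : A, x.right ≠ 1 → orderOf x = t := by
    intro x hx
    obtain ⟨v, h, rfl⟩ := affMk_surj x
    rw [affMk_right] at hx
    rw [orderOf_affMk_of_fpf v h (fun w hw => hf h w hx hw)]
    exact orderOf_eq_prime (hct h) hx
  have hcomm : ∀ x y : A, x.right ≠ 1 → y.right = 1 → x * y = y * x → y = 1 := by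
    intro x y hx hy hxy
    obtain ⟨v, h, rfl⟩ := affMk_surj x
    obtain ⟨w, k, rfl⟩ := affMk_surj y
    rw [affMk_right] at hx hy
    subst hy
    rw [affMk_mul, affMk_mul, affMk_inj, one_smul, add_comm w v] at hxy
    rw [hf h w hx (add_left_cancel hxy.1), affMk_zero_one]
  obtain ⟨F, hF⟩ := minFrob_aux hp ht hpt (SemidirectProduct.rightHom : A →* _) hker hout
    hcomm
    ⟨affMk 1 1, by rw [orderOf_affMk_one]; exact addOrderOf_eq_prime_of_ne hp (hV 1) one_ne_zero⟩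
    ⟨affMk 0 ⟨z, Subgroup.mem_zpowers z⟩, by rw [orderOf_affMk_zero, ← Subgroup.orderOf_coe, hz]⟩
  exact ⟨F, inferInstance, inferInstance, hF⟩

end Cfsg.Agent.Spec
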