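import Cfsg.Agent.Spec.Ree6
import Cfsg.Agent.Spec.O4m

/-!
A group with abelian normal subgroup isospectral to the direct cube of a Ree group.
-/

set_option autoImplicit false

namespace Cfsg.Agent.Spec.Ree

open Matrix Cfsg.Lie
open scoped MatrixGroups Kronecker

variable (K : Type*) [Field K] [CharP K 3]

/-- the group `± PSL₂(q)` in dimension 4 -/
def Y4 : Subgroup (GL (Fin 2 × Fin 2) K) where
  carrier := {T | ∃ g, (T : Matrix _ _ K) = rho4 3 1 g ∨ (T : Matrix _ _ K) = -rho4 3 1 g}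
  one_mem' := ⟨1, Or.inl (by rw [map_one]; rfl)⟩
  mul_mem' := by
    rintro S T ⟨g, hg | hg⟩ ⟨h, hh | hh⟩
    · exact ⟨g * h, Or.inl (by rw [Units.val_mul, hg, hh, map_mul])⟩
    · exact ⟨g * h, Or.inr (by rw [Units.val_mul, hg, hh, map_mul, mul_neg])⟩
    · exact ⟨g * h, Or.inr (by rw [Units.val_mul, hg, hh, map_mul, neg_mul])⟩
    · exact ⟨g * h, Or.inl (by rw [Units.val_mul, hg, hh, map_mul, neg_mul_neg])⟩
  inv_mem' := by
    rintro S ⟨g, hg | hg⟩
    · exact ⟨g⁻¹, Or.inl (Units.inv_eq_of_mul_eq_one_right (by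
        rw [hg, ← map_mul, mul_inv_cancel, map_one]))⟩
    · exact ⟨g⁻¹, Or.inr (Units.inv_eq_of_mul_eq_one_right (by
        rw [hg, neg_mul_neg, ← map_mul, mul_inv_cancel, map_one]))⟩

variable {K} [Fintype K] {m : ℕ}

/-- the spectrum of the affine group -/
def XSet (q : ℕ) : Set ℕ := {n | n ∣ 6 ∨ n ∣ 9 ∨ n ∣ q - 1 ∨ n ∣ (q + 1) / 2}

theorem alpha_cases (g : SL(2, K)) {α : AlgebraicClosure K} (hα : α ≠ 0)
    (he : eig (sm g) = {α, α⁻¹}) :
    α ^ (Fintype.card K - 1) = 1 ∨ α ^ (Fintype.card K + 1) = 1 := by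
  have h := mem_of_map_eq (eig_map_pow_card (sm g)) (x := α) (by simp [he])
  rw [he] at h
  simp only [Multiset.insert_eq_cons, Multiset.mem_cons, Multiset.mem_singleton] at h
  rcases h with h | h
  · left
    apply mul_right_cancel₀ hα
    rw [← pow_succ, Nat.sub_add_cancel Fintype.card_pos, h, one_mul]
  · right
    rw [pow_succ, h, inv_mul_cancel₀ hα]

theorem spec_X (hK : Fintype.card K = 3 ^ (2 * m + 1)) :
    Set.range (orderOf : Aff (Y4 K) (Fin 2 × Fin 2 → K) → ℕ) = XSet (3 ^ (2 * m + 1)) := by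
  classical
  have hρ := rho4_eq_one_iff (K := K) 3 1
  have hG : ∀ g, (rho4 (K := K) 3 1).toHomUnits g ∈ Y4 K := fun g => ⟨g, Or.inl rfl⟩
  have h8 := card_mod_eight m
  set q := 3 ^ (2 * m + 1) with hq
  have hV : ∀ w : Fin 2 × Fin 2 → K, 3 • w = 0 := by
    intro w
    rw [← Nat.cast_smul_eq_nsmul K, CharP.cast_eq_zero, zero_smul]
  have pw : ∀ (T : Y4 K) (g : SL(2, K)), ((T.1 : Matrix _ _ K) = rho4 3 1 g ∨
      (T.1 : Matrix _ _ K) = -rho4 3 1 g) → ∀ k n, IsScal2 (sm g ^ k) → Even n → k ∣ n →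
      orderOf T ∣ n := by
    rintro T g h k n hk hn ⟨j, rfl⟩
    rw [← rep_pow_eq_one_iff hρ] at hk
    rw [orderOf_dvd_iff_coe]
    rcases h with h | h
    · rw [h, pow_mul, hk, one_pow]
    · rw [h, hn.neg_pow, pow_mul, hk, one_pow]
  ext n
  rw [mem_spec_aff Nat.prime_three hV]
  constructor
  · rintro (⟨T, rfl⟩ | ⟨T, v, hv, rfl⟩)
    · obtain ⟨g, hg⟩ := T.2
      obtain ⟨α, hα, he⟩ := eig_sl2 g
      rcases alpha_cases g hα he with h | h
      · rcases sl2_pow_scalar 3 g hα he (m := (q - 1) / 2) (by omega)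
          (by rw [← h, hK]; congr 1; omega) with h1 | h1
        · exact Or.inr (Or.inr (Or.inl (pw T g hg _ _ h1 ⟨(q - 1) / 2, by omega⟩
            ⟨2, by omega⟩)))
        · exact Or.inl (pw T g hg _ _ h1 (by decide) (by decide))
      · rcases sl2_pow_scalar 3 g hα he (m := (q + 1) / 2) (by omega)
          (by rw [← h, hK]; congr 1; omega) with h1 | h1
        · exact Or.inr (Or.inr (Or.inr (pw T g hg _ _ h1 ⟨(q + 1) / 4, by omega⟩ dvd_rfl)))
        · exact Or.inl (pw T g hg _ _ h1 (by decide) (by decide))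
    · obtain ⟨g, hg⟩ := T.2
      obtain ⟨α, hα, he⟩ := eig_sl2 g
      have h1 := one_mem_eig_of_affNorm_ne_zero hv
      have hk : ∀ z : AlgebraicClosure K, z ^ 2 = 1 → z ∈ eig (rho4 3 1 g) → α ^ 8 = 1 := by
        intro z hz hm
        obtain ⟨x, hx, y', hy', e⟩ := mem_eig_kronecker (by rintro rfl; simp at hz) hm
        obtain ⟨y, hy, rfl⟩ := mem_eig_map_frob 3 1 hy'
        rw [he] at hx hy
        simp only [Multiset.insert_eq_cons, Multiset.mem_cons, Multiset.mem_singleton] at hx hy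
        have i := mul_inv_cancel₀ hα
        rw [e] at hz
        rcases hx with rfl | rfl <;> rcases hy with rfl | rfl <;> grind
      have h2 : α ^ 8 = 1 := by
        rcases hg with h | h
        · exact hk 1 (one_pow _) (h ▸ h1)
        · have h3 : -1 ∈ eig (rho4 3 1 g) := by
            rw [h, mem_eig_iff] at h1
            obtain ⟨w, hw, e⟩ := h1
            refine mem_eig_iff.2 ⟨w, hw, ?_⟩
            rw [Matrix.map_neg _ (map_neg _), neg_mulVec, one_smul] at e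
            rw [neg_smul, one_smul, ← neg_eq_iff_eq_neg, e]
          exact hk (-1) (by simp) h3
      have h4 : α ^ (2 * 2) = 1 := by
        rcases alpha_cases g hα he with h | h
        · rw [hK, show q - 1 = 8 * (q / 8) + 2 by omega, pow_add, pow_mul, h2, one_pow,
            one_mul] at h
          rw [pow_mul, h, one_pow]
        · rwa [hK, show q + 1 = 8 * (q / 8) + 4 by omega, pow_add, pow_mul, h2, one_pow,
            one_mul] at h
      rcases sl2_pow_scalar 3 g hα he two_ne_zero h4 with h5 | h5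
      · exact Or.inl (Nat.mul_dvd_mul_right (pw T g hg _ 2 h5 (by decide) dvd_rfl) 3)
      · rw [← rep_pow_eq_one_iff hρ] at h5
        rcases hg with h | h
        · exact Or.inr (Or.inl (Nat.mul_dvd_mul_right
            ((orderOf_dvd_iff_coe T 3).2 (by rw [h, h5])) 3))
        · have := pow_eq_of_mem_eig h1 (m := 3) (c := -1)
            (by rw [h, Odd.neg_pow (by decide), h5]; simp)
          simp only [one_pow, map_neg, map_one] at this
          grind
  · have hsub := spec_psl2_subset hρ hG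
    rw [spec_psl2 3, hK, show Nat.gcd 2 (q - 1) = 2 from
      Nat.gcd_eq_left ⟨(q - 1) / 2, by omega⟩] at hsub
    let z : Y4 K := ⟨-1, 1, Or.inr (by simp)⟩
    have hz : orderOf z = 2 := by
      apply orderOf_eq_prime
      · exact Subtype.ext (by simp [z])
      · intro e
        have := congrArg (fun T : Y4 K => (T.1 : Matrix (Fin 2 × Fin 2) (Fin 2 × Fin 2) K) (0, 0) (0, 0)) e
        simp [z] at this
        grind
    have dbl : ∀ k, Odd k → k ∈ Set.range (orderOf : Y4 K → ℕ) →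
        2 * k ∈ Set.range (orderOf : Y4 K → ℕ) := by
      rintro _ hk ⟨T, rfl⟩
      refine ⟨z * T, ?_⟩
      rw [Commute.orderOf_mul_eq_mul_orderOf_of_coprime (Subtype.ext (by simp [z]))
        (by rw [hz]; exact Nat.coprime_two_left.2 hk), hz]
    rintro (h | h | h | h)
    · exact Or.inl (mem_spec_of_dvd (dbl 3 (by decide) (hsub (Or.inl dvd_rfl))) h)
    · obtain ⟨T, v, hv, hT⟩ := exists_unip_rep 3 hρ hG up2 sm_up2 fun h => by
        have e : (sm (up2 : SL(2, K))).map (iterateFrobenius K 3 1) = sm up2 := by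
          rw [sm_up2]
          ext a b
          fin_cases a <;> fin_cases b <;> simp
        have h1 : (rho4 (K := K) 3 1 up2 - 1) ^ (3 - 1) =
            rho4 (K := K) 3 1 up2 ^ 2 - rho4 (K := K) 3 1 up2 - rho4 (K := K) 3 1 up2 + 1 := by
          rw [show 3 - 1 = 2 from rfl]
          noncomm_ring
        rw [h1, rho4_apply, e, kronecker_pow, sm_up2, transvection_pow_two] at h
        have h2 := congrFun (congrFun h (0, 0)) (1, 1)
        simp [kroneckerMap_apply] at h2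
        grind
      rw [← mem_spec_aff Nat.prime_three hV]
      exact mem_spec_of_dvd ((mem_spec_aff Nat.prime_three hV 9).2
        (Or.inr ⟨T, v, hv, by rw [hT]⟩)) h
    · refine Or.inl (mem_spec_of_dvd (dbl ((q - 1) / 2) ⟨q / 4, by omega⟩
        (hsub (Or.inr (Or.inl dvd_rfl)))) ?_)
      rwa [show 2 * ((q - 1) / 2) = q - 1 by omega]
    · exact Or.inl (hsub (Or.inr (Or.inr h)))

theorem lcm_cases {q s a b c : ℕ} (ha : a ∈ ReeSet q s) (hb : b ∈ ReeSet q s)
    (hc : c ∈ ReeSet q s) : ∃ a' ∈ ReeSet q s, ∃ b' ∈ ReeSet q s, ∃ c' ∈ XSet q,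
      Nat.lcm a (Nat.lcm b c) = Nat.lcm a' (Nat.lcm b' c') := by
  have k : ∀ n ∈ ReeSet q s, n ∈ XSet q ∨ n ∣ q + 1 - s ∨ n ∣ q + 1 + s := by
    intro n hn
    simp only [ReeSet, XSet, Set.mem_setOf_eq] at hn ⊢
    tauto
  have o : 1 ∈ XSet q := Or.inl (one_dvd _)
  have l1 : ∀ {x y}, x ∣ q + 1 - s → y ∣ q + 1 - s → Nat.lcm x y ∈ ReeSet q s := fun hx hy =>
    Or.inr (Or.inr (Or.inr (Or.inr (Or.inl (Nat.lcm_dvd hx hy)))))
  have l2 : ∀ {x y}, x ∣ q + 1 + s → y ∣ q + 1 + s → Nat.lcm x y ∈ ReeSet q s := fun hx hy =>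
    Or.inr (Or.inr (Or.inr (Or.inr (Or.inr (Nat.lcm_dvd hx hy)))))
  have p1 : Nat.lcm b c ∈ ReeSet q s → ∃ a' ∈ ReeSet q s, ∃ b' ∈ ReeSet q s, ∃ c' ∈ XSet q,
      Nat.lcm a (Nat.lcm b c) = Nat.lcm a' (Nat.lcm b' c') := fun h =>
    ⟨a, ha, _, h, 1, o, by rw [Nat.lcm_one_right]⟩
  have p2 : Nat.lcm a c ∈ ReeSet q s → ∃ a' ∈ ReeSet q s, ∃ b' ∈ ReeSet q s, ∃ c' ∈ XSet q,
      Nat.lcm a (Nat.lcm b c) = Nat.lcm a' (Nat.lcm b' c') := fun h =>
    ⟨b, hb, _, h, 1, o, by rw [Nat.lcm_one_right, ← Nat.lcm_assoc, Nat.lcm_comm a, Nat.lcm_assoc]⟩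
  have p3 : Nat.lcm a b ∈ ReeSet q s → ∃ a' ∈ ReeSet q s, ∃ b' ∈ ReeSet q s, ∃ c' ∈ XSet q,
      Nat.lcm a (Nat.lcm b c) = Nat.lcm a' (Nat.lcm b' c') := fun h =>
    ⟨c, hc, _, h, 1, o, by rw [Nat.lcm_one_right, Nat.lcm_comm c, Nat.lcm_assoc]⟩
  by_cases h1 : c ∈ XSet q
  · exact ⟨a, ha, b, hb, c, h1, rfl⟩
  by_cases h2 : b ∈ XSet q
  · exact ⟨a, ha, c, hc, b, h2, by rw [Nat.lcm_comm b]⟩
  by_cases h3 : a ∈ XSet q
  · exact ⟨b, hb, c, hc, a, h3, by rw [Nat.lcm_comm a, Nat.lcm_assoc]⟩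
  rcases (k a ha).resolve_left h3 with x | x <;> rcases (k b hb).resolve_left h2 with y | y <;>
    rcases (k c hc).resolve_left h1 with z | z <;>
    first | exact p1 (l1 y z) | exact p1 (l2 y z) | exact p2 (l1 x z) | exact p2 (l2 x z)
          | exact p3 (l1 x y) | exact p3 (l2 x y)

theorem cube (hK : Fintype.card K = 3 ^ (2 * m + 1)) (N : ℕ) :
    ∃ (H : Type) (_ : Group H) (_ : Fintype H), N < Fintype.card H ∧
      Set.range (orderOf : H → ℕ) = Set.range (orderOf :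
        twistedG2 K (3 ^ m) × twistedG2 K (3 ^ m) × twistedG2 K (3 ^ m) → ℕ) := by
  classical
  let φ : twistedG2 K (3 ^ m) × twistedG2 K (3 ^ m) × Aff (Y4 K) (Fin 2 × Fin 2 → K) →*
      twistedG2 K (3 ^ m) × twistedG2 K (3 ^ m) × Y4 K :=
    (MonoidHom.id _).prodMap ((MonoidHom.id _).prodMap SemidirectProduct.rightHom)
  have hk : ∀ x ∈ φ.ker, ∃ v, x = (1, 1, affMk v 1) := by
    rintro ⟨a, b, c⟩ hx
    obtain ⟨v, h, rfl⟩ := affMk_surj c
    have e := MonoidHom.mem_ker.1 hx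
    simp only [φ, MonoidHom.prodMap_def, MonoidHom.prod_apply, MonoidHom.comp_apply,
      MonoidHom.coe_fst, MonoidHom.coe_snd, MonoidHom.id_apply, Prod.mk_eq_one] at e
    obtain ⟨rfl, rfl, e⟩ := e
    have : h = 1 := e
    exact ⟨v, by rw [this]⟩
  obtain ⟨H, i1, i2, h1, h2⟩ := exists_large_isospectral φ.ker (by
    intro h
    have : ((1, 1, affMk (fun _ => 1) 1) : twistedG2 K (3 ^ m) × twistedG2 K (3 ^ m) ×
        Aff (Y4 K) (Fin 2 × Fin 2 → K)) ∈ φ.ker := rfl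
    rw [h, Subgroup.mem_bot, Prod.mk_eq_one, Prod.mk_eq_one, ← affMk_zero_one, affMk_inj] at this
    exact one_ne_zero (congrFun this.2.2.1 (0, 0))) (isSolvable_of_comm fun x y => by
      obtain ⟨v, hv⟩ := hk x.1 x.2
      obtain ⟨w, hw⟩ := hk y.1 y.2
      refine Subtype.ext ?_
      simp only [Subgroup.coe_mul, hv, hw, Prod.mk_mul_mk, affMk_mul, one_smul, add_comm]) N
  refine ⟨H, i1, i2, h1, h2.trans ?_⟩
  ext n
  simp only [mem_spec_prod, spec_ree hK, spec_X hK]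
  constructor
  · rintro ⟨a, ha, _, ⟨b, hb, c, hc, rfl⟩, rfl⟩
    refine ⟨a, ha, _, ⟨b, hb, c, ?_, rfl⟩, rfl⟩
    simp only [ReeSet, XSet, Set.mem_setOf_eq] at hc ⊢
    tauto
  · rintro ⟨a, ha, _, ⟨b, hb, c, hc, rfl⟩, rfl⟩
    obtain ⟨a', ha', b', hb', c', hc', e⟩ := lcm_cases ha hb hc
    exact ⟨a', ha', _, ⟨b', hb', c', hc', rfl⟩, e⟩

end Cfsg.Agent.Spec.Ree
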