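import Cfsg.Agent.Spec.CodeOrd
import Cfsg.Agent.Spec.Symp
import Cfsg.Agent.Spec.SL2Aff

/-!
The prime graph of `PSp₆(3)`.
-/

set_option autoImplicit false

namespace Cfsg.Agent.Spec

open Matrix Cfsg.Agent.Comp

theorem zpow_ne_of_dvd {K : Type*} [Field K] {x : K} (hx : x ≠ 0) {N : ℕ} (hN : x ^ N ≠ 1)
    {a b : ℤ} (h : a - b ∣ (N : ℤ)) : x ^ a ≠ x ^ b := by
  intro e
  obtain ⟨c, hc⟩ := h
  apply hN
  rw [← zpow_natCast, hc, _root_.zpow_mul, zpow_sub₀ hx, e, div_self (zpow_ne_zero _ hx),
    _root_.one_zpow]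

theorem zpow_nodup {K : Type*} [Field K] {x : K} (hx : x ≠ 0) {N : ℕ} (hN : x ^ N ≠ 1)
    {l : List ℤ} (hl : l.Pairwise fun a b => a - b ∣ (N : ℤ)) : (l.map fun a => x ^ a).Nodup := by
  rw [List.Nodup, List.pairwise_map]
  exact hl.imp fun h => zpow_ne_of_dvd hx hN h

section

variable {F : Type*} [Field F] [Fintype F]

theorem sp63_cases [CharP F 3] (hF : Fintype.card F = 3)
    {A : Matrix (Fin 3 ⊕ Fin 3) (Fin 3 ⊕ Fin 3) F} (hA : A ∈ symplecticGroup (Fin 3) F) :
    A ^ 360 = 1 ∨ (∃ c : F, A ^ 13 = algebraMap F _ c) ∨ ∃ c : F, A ^ 14 = algebraMap F _ c := by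
  classical
  have : Fact (Nat.Prime 3) := ⟨Nat.prime_three⟩
  by_cases h40 : ∀ x ∈ eig A, x ^ 40 = 1
  · exact Or.inl (pow_eq_one_of_eig 3 A (m := 40) (by norm_num) 2 h40
      fun x => (count_eig_le A x).trans (by simp))
  right
  push Not at h40
  obtain ⟨x, hx, hx40⟩ := h40
  have hx0 := ne_zero_of_mem_eig_symplectic hA hx
  have hN : x ^ 1080 ≠ 1 := fun e => hx40 (pow_eq_one_of_pow_char_pow_mul 3 3 (by
    rw [show 3 ^ 3 * 40 = 1080 by norm_num]; exact e))
  have h3 : ∀ y ∈ eig A, y ^ 3 ∈ eig A := fun y hy => by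
    have := pow_card_mem_eig hy
    rwa [hF] at this
  have m1 := h3 x hx
  have m2 := h3 _ m1
  have m3 := h3 _ m2
  rw [← pow_mul] at m2
  rw [← pow_mul, ← pow_mul] at m3
  have hn := zpow_nodup hx0 hN (l := [1, 3, 9, -1, -3, -9]) (by decide +kernel)
  have he := eq_of_nodup (s := eig A) hn (by
    intro y hy
    simp only [List.map_cons, List.map_nil, List.mem_cons, List.not_mem_nil, or_false,
      _root_.zpow_neg, zpow_ofNat, pow_one] at hy
    rcases hy with rfl | rfl | rfl | rfl | rfl | rfl
    · exact hx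
    · exact m1
    · exact m2
    · exact inv_mem_eig_symplectic hA hx
    · exact inv_mem_eig_symplectic hA m1
    · exact inv_mem_eig_symplectic hA m2) (by simp [eig_card])
  have key : ∀ m : ℕ, m ≠ 0 → x ^ (2 * m) = 1 → ∃ c : F, A ^ m = algebraMap F _ c := by
    intro m hm h
    rw [mul_comm, pow_mul] at h
    obtain ⟨c, hc, e⟩ := exists_eq_algebraMap_of_sq (F := F) h
    refine ⟨c, pow_eq_of_eig_nodup A hm c ?_ (by rw [he]; exact Multiset.coe_nodup.2 hn)⟩
    intro y hy
    rw [he, Multiset.mem_coe, List.mem_map] at hy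
    obtain ⟨a, ha, rfl⟩ := hy
    have hodd : ∃ k, a = 2 * k + 1 := by
      simp only [List.mem_cons, List.not_mem_nil, or_false] at ha
      exact ⟨(a - 1) / 2, by omega⟩
    obtain ⟨k, rfl⟩ := hodd
    rw [← e, ← zpow_natCast, ← _root_.zpow_mul, mul_comm, _root_.zpow_mul, zpow_natCast,
      zpow_add₀ (pow_ne_zero _ hx0), _root_.zpow_mul, zpow_ofNat, h, _root_.one_zpow, one_mul,
      zpow_one]
  have m3' : x ^ (27 : ℤ) ∈ eig A := by rw [zpow_ofNat]; exact m3
  rw [he, Multiset.mem_coe, List.mem_map] at m3'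
  obtain ⟨a, ha, e⟩ := m3'
  simp only [List.mem_cons, List.not_mem_nil, or_false] at ha
  rcases ha with rfl | rfl | rfl | rfl | rfl | rfl
  · left
    apply key 13 (by norm_num)
    apply mul_right_cancel₀ hx0
    rw [zpow_ofNat, zpow_ofNat] at e
    rw [← pow_succ, one_mul, ← e, pow_one]
  · exact absurd e (zpow_ne_of_dvd hx0 hN (by norm_num))
  · exact absurd e (zpow_ne_of_dvd hx0 hN (by norm_num))
  · right
    apply key 14 (by norm_num)
    rw [_root_.zpow_neg, zpow_ofNat, zpow_ofNat, pow_one] at e
    rw [show 2 * 14 = 27 + 1 from rfl, pow_succ, ← e, inv_mul_cancel₀ hx0]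
  · exact absurd e (zpow_ne_of_dvd hx0 hN (by norm_num))
  · exact absurd e (zpow_ne_of_dvd hx0 hN (by norm_num))

/-- layout of `6 × 6` matrices over the field with three elements -/
noncomputable def S63 : VL := ⟨nat_lit 6, nat_lit 2, nat_lit 3⟩

/-- numbering of the coordinates -/
noncomputable def σ63 : Fin 3 ⊕ Fin 3 ≃ Fin S63.d := finSumFinEquiv (m := 3) (n := 3)

omit [Fintype F] in
theorem exists_psp63_order [CharP F 3] (A : ℕ) (L : List ℕ)
    (h1 : mat (fun a => (a : ZMod 3)) S63 σ63 A * J (Fin 3) (ZMod 3) *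
      (mat (fun a => (a : ZMod 3)) S63 σ63 A)ᵀ = J (Fin 3) (ZMod 3))
    (h2 : ordL (zOps 3) S63 A L A = true) :
    L.length + 1 ∈ Set.range (orderOf : PSp 3 F → ℕ) := by
  have h3 := SymplecticGroup.map_mem (SymplecticGroup.mem_iff.2 h1) (ZMod.castHom (dvd_refl 3) F)
  have h4 : (mat (fun a => (a : ZMod 3)) S63 σ63 A).map (ZMod.castHom (dvd_refl 3) F) =
      mat (fun a => (a : F)) S63 σ63 A := by
    ext i j
    rw [map_apply, mat_apply, mat_apply, map_natCast]
  exact ⟨_, orderOf_mk_of_ordL (zOps_sem' 3) σ63 spMat sp_center h2 ⟨_, h3⟩ h4⟩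

theorem hasPG_psp63 (hF : Fintype.card F = 3) :
    HasPG (PSp 3 F) [2, 3, 5, 7, 13] [6, 10, 14, 15] := by
  have : CharP F 3 := charP_of_card_eq_pow (n := 1) Nat.prime_three hF
  have h14 : 14 ∈ Set.range (orderOf : PSp 3 F → ℕ) :=
    exists_psp63_order 1561806151619323499874 [394669032080553414826, 2808690572127605753365,
      609105800525435721353, 481927181957810230416, 2547427779945820102678, 1947890226938399490328,
      195242326219153213462, 486822831971221244049, 1792381186467378596480, 454870678705704423961,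
      2758964283949642328224, 2739641167503123964266, 2361327365419528388610]
      (by decide +kernel) (by decide +kernel)
  have h13 : 13 ∈ Set.range (orderOf : PSp 3 F → ℕ) :=
    exists_psp63_order 3052961021337049409921 [609428300632972961958, 157396322697232319074,
      159721858869427001641, 1781433340960337978690, 3050678244855849714689, 2403131251882922742809,
      601902899787144534662, 2813820430579709510186, 1635424018670421285284, 480933115027389565000,
      1819748430465406214740, 1180663682709764194305] (by decide +kernel) (by decide +kernel)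
  have h30 : 30 ∈ Set.range (orderOf : PSp 3 F → ℕ) :=
    exists_psp63_order 1199441753755985938985 [1297352231191223279714, 703401047587123451008,
      634761161826476889361, 479802827653813212200, 1850444807768263779842, 2704830853660321924185,
      1625626263099147288725, 148914060624916670728, 2409978132217878036481, 42775929543108102697,
      2454018269603515408482, 3030564588197284762752, 1790559761482295678225,
      2810435479199392306216, 3062448334071395935746, 1476398828410606077017,
      2851464844108493750421, 2534887789640181639432, 24865927531220451329, 2373398237913028266537,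
      85336040987838980194, 1873898553032591889536, 2961074369005695145233, 1653759307687686935592,
      694646840606508869122, 319721815514857751641, 466366154549240004757, 1374752009139192621320,
      1180663682709764194305] (by decide +kernel) (by decide +kernel)
  apply hasPG_of_bounds _ _ [1, 2, 3, 4, 5, 6, 8, 9, 10, 12, 15, 18, 20, 24, 30, 36, 40, 45, 60,
    72, 90, 120, 180, 360, 13, 7, 14] _ _ (by decide +kernel)
  · intro n hn
    simp only [List.cons_append, List.nil_append, List.mem_cons, List.not_mem_nil, or_false] at hn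
    rcases hn with rfl | rfl | rfl | rfl | rfl | rfl | rfl | rfl | rfl
    · exact mem_spec_of_dvd h30 (by norm_num)
    · exact mem_spec_of_dvd h30 (by norm_num)
    · exact mem_spec_of_dvd h30 (by norm_num)
    · exact mem_spec_of_dvd h14 (by norm_num)
    · exact h13
    · exact mem_spec_of_dvd h30 (by norm_num)
    · exact mem_spec_of_dvd h30 (by norm_num)
    · exact h14
    · exact mem_spec_of_dvd h30 (by norm_num)
  · rintro n ⟨x, rfl⟩
    obtain ⟨g, rfl⟩ := QuotientGroup.mk_surjective x
    have hd : ∀ N : ℕ, N ≠ 0 → ∀ L : List ℕ, (∀ k ∈ Nat.divisors N, k ∈ L) →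
        (∃ c : F, spMat g ^ N = algebraMap F _ c) →
        orderOf (QuotientGroup.mk g : PSp 3 F) ∈ L := fun N hN L hL h =>
      hL _ (Nat.mem_divisors.2 ⟨(psp_orderOf_dvd_iff g N).2 h, hN⟩)
    rcases sp63_cases hF (spMat_mem g) with h | h | h
    · exact hd 360 (by norm_num) _ (by decide +kernel) ⟨1, by rw [h, map_one]⟩
    · exact hd 13 (by norm_num) _ (by decide +kernel) h
    · exact hd 14 (by norm_num) _ (by decide +kernel) h

end

end Cfsg.Agent.Spec
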