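import Cfsg.Agent.Comp.Sz83V48.Lin
import Cfsg.Agent.Spec.CompNorm
import Cfsg.Agent.Spec.Cusp

/-!
The prime graph of `2⁴⁸ ⋊ (Sz(8) : 3)`.
-/

set_option autoImplicit false
set_option maxRecDepth 100000

namespace Cfsg.Agent.Spec.Sz83

open Cfsg.Agent.Comp Cfsg.Agent.Comp.Sz83V48

theorem hinv : all1 (fun j => mmOne O S (nth As j) (nth Bs j)) (nat_lit 0) 2 = true := by
  decide +kernel

/-- the generators -/
noncomputable def gens : ℕ → GL (Fin 48) (ZMod 2) :=
  glGens (fun a => (a : ZMod 2)) S (Equiv.refl (Fin 48)) As Bs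

theorem mdl : J.Model (vecLst (zOps_sem 2) (Equiv.refl (Fin 48)) hl hp) gens ⊤ :=
  model (zOps_sem 2) (Equiv.refl (Fin 48)) gens (glGens_val (zOps_sem 2) _ hinv)

theorem z13 : zeroAll O S P J R os 13 = true := by decide +kernel

theorem n5 : wordK J.E (nthW R.xs 14) (fun x => x) (nzF O S P J.E.k 0 0 5) = true := by
  decide +kernel

theorem n7 : wordK J.E (nthW R.xs 15) (fun x => x) (nzF O S P J.E.k 0 0 7) = true := by
  decide +kernel

instance finG : Finite (J.G gens) := finite mdl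

theorem hasPG : HasPG (Aff (J.G gens) (Fin 48 → ZMod 2)) [2, 3, 5, 7, 13] [6, 10, 14, 15] := by
  have hV : ∀ w : Fin 48 → ZMod 2, 2 • w = 0 := fun w => by
    funext i
    exact zmod_nsmul_self 2 (w i)
  apply hasPG_of_bounds _ _ [1, 2, 3, 4, 5, 6, 7, 12, 13, 15, 8, 10, 14, 24, 30] _ _
    (by decide +kernel)
  · intro n hn
    rw [mem_spec_aff Nat.prime_two hV, spec mdl]
    by_cases h10 : n = 10
    · obtain ⟨g, v, h1, h2⟩ := exists_affNorm_ne_zero_of_chk (zOps_sem 2) _ mdl (ctx mdl)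
        (GpL_eq gens) (j := 14) (by decide) (ords mdl 14 (by decide)) n5
      exact Or.inr ⟨g, v, h1, by rw [h2, h10]; rfl⟩
    by_cases h14 : n = 14
    · obtain ⟨g, v, h1, h2⟩ := exists_affNorm_ne_zero_of_chk (zOps_sem 2) _ mdl (ctx mdl)
        (GpL_eq gens) (j := 15) (by decide) (ords mdl 15 (by decide)) n7
      exact Or.inr ⟨g, v, h1, by rw [h2, h14]; rfl⟩
    left
    simp only [List.cons_append, List.nil_append, List.mem_cons, List.not_mem_nil, or_false,
      Set.mem_ofPred_eq] at hn ⊢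
    omega
  · intro n hn
    rw [mem_spec_aff Nat.prime_two hV, spec mdl] at hn
    rcases hn with hn | ⟨g, v, hv, rfl⟩
    · simp only [List.mem_cons, List.not_mem_nil, or_false, Set.mem_ofPred_eq] at hn ⊢
      omega
    · have h1 : orderOf g ∈ {n | n ∈ [1, 2, 3, 4, 5, 6, 7, 12, 13, 15]} := spec mdl ▸ ⟨g, rfl⟩
      have h2 : orderOf g ≠ 13 := fun h => hv (affNorm_eq_zero_of_chk (zOps_sem 2) _ hc mdl
        (ctx mdl) (classes mdl) (ords mdl) z13 g h v)
      simp only [List.mem_cons, List.not_mem_nil, or_false, Set.mem_ofPred_eq] at h1 ⊢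
      omega

end Cfsg.Agent.Spec.Sz83
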