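import Mathlib

/-!
Sparse multivariate polynomials modulo 3 with monomials coded by products of primes, and
matrices of such polynomials, for kernel computations.
-/

set_option autoImplicit false

namespace Cfsg.Agent.Spec.PR

open Matrix

/-- a polynomial: list of (monomial code, coefficient) -/
abbrev Pol : Type := List (ℕ × ℕ)

def pins (c k : ℕ) : Pol → Pol
  | [] => if k % 3 = 0 then [] else [(c, k % 3)]
  | (d, l) :: p =>
    if c < d then (if k % 3 = 0 then (d, l) :: p else (c, k % 3) :: (d, l) :: p)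
    else if c = d then (if (k + l) % 3 = 0 then p else (d, (k + l) % 3) :: p)
    else (d, l) :: pins c k p

def padd : Pol → Pol → Pol
  | [], q => q
  | (c, k) :: p, q => pins c k (padd p q)

def pmono (c k : ℕ) : Pol → Pol
  | [] => []
  | (d, l) :: p => (c * d, k * l % 3) :: pmono c k p

def pmul : Pol → Pol → Pol
  | [], _ => []
  | (c, k) :: p, q => padd (pmono c k q) (pmul p q)

def pcst (k : ℕ) : Pol := if k % 3 = 0 then [] else [(1, k % 3)]

def pneg (p : Pol) : Pol := pmono 1 2 p

def ppow (p : Pol) : ℕ → Pol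
  | 0 => [(1, 1)]
  | n + 1 => pmul p (ppow p n)

def pvar (c : ℕ) : Pol := [(c, 1)]

def peq (p q : Pol) : Bool := (padd p (padd (pneg q) [])).isEmpty

variable {K : Type*} [CommRing K]

/-- value of a monomial code -/
noncomputable def mono (x : ℕ → K) (c : ℕ) : K :=
  if c = 0 then 0 else c.factorization.prod fun p e => x p ^ e

theorem mono_mul (x : ℕ → K) (c d : ℕ) : mono x (c * d) = mono x c * mono x d := by
  unfold mono
  by_cases hc : c = 0
  · simp [hc]
  by_cases hd : d = 0
  · simp [hd]
  rw [if_neg (mul_ne_zero hc hd), if_neg hc, if_neg hd, Nat.factorization_mul hc hd,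
    Finsupp.prod_add_index' (fun _ => pow_zero _) (fun _ _ _ => pow_add _ _ _)]

theorem mono_one (x : ℕ → K) : mono x 1 = 1 := by simp [mono]

theorem mono_prime (x : ℕ → K) {p : ℕ} (hp : p.Prime) : mono x p = x p := by
  rw [mono, if_neg hp.ne_zero, hp.factorization, Finsupp.prod_single_index (h := fun p e => x p ^ e)
    (pow_zero _), pow_one]

/-- value of a polynomial -/
noncomputable def ev (x : ℕ → K) : Pol → K
  | [] => 0
  | (c, k) :: p => (k : K) * mono x c + ev x p

@[simp] theorem ev_nil (x : ℕ → K) : ev x [] = 0 := rfl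

@[simp] theorem ev_cons (x : ℕ → K) (c k : ℕ) (p : Pol) :
    ev x ((c, k) :: p) = (k : K) * mono x c + ev x p := rfl

theorem ev_pvar (x : ℕ → K) {p : ℕ} (hp : p.Prime) : ev x (pvar p) = x p := by
  simp [pvar, mono_prime x hp]

variable [CharP K 3]

theorem cast_mod3 (k : ℕ) : ((k % 3 : ℕ) : K) = k := (CharP.cast_eq_mod K 3 k).symm

theorem cast_zero3 {k : ℕ} (h : k % 3 = 0) : (k : K) = 0 := by
  rw [← cast_mod3, h, Nat.cast_zero]

theorem ev_pins (x : ℕ → K) (c k : ℕ) (p : Pol) :
    ev x (pins c k p) = (k : K) * mono x c + ev x p := by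
  induction p with
  | nil =>
    unfold pins
    split_ifs with h
    · simp [cast_zero3 h]
    · simp [cast_mod3]
  | cons a p ih =>
    obtain ⟨d, l⟩ := a
    unfold pins
    split_ifs with h1 h2 h3 h4
    · simp [cast_zero3 h2]
    · simp [cast_mod3]
    · subst h3
      have := cast_zero3 (K := K) h4
      rw [Nat.cast_add] at this
      rw [ev_cons, ← add_assoc, ← add_mul, this]
      simp
    · subst h3
      rw [ev_cons, ev_cons, cast_mod3, Nat.cast_add]
      ring
    · rw [ev_cons, ev_cons, ih]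
      ring

theorem ev_padd (x : ℕ → K) (p q : Pol) : ev x (padd p q) = ev x p + ev x q := by
  induction p with
  | nil => simp [padd]
  | cons a p ih =>
    obtain ⟨c, k⟩ := a
    rw [padd, ev_pins, ih, ev_cons, add_assoc]

theorem ev_pmono (x : ℕ → K) (c k : ℕ) (p : Pol) :
    ev x (pmono c k p) = (k : K) * mono x c * ev x p := by
  induction p with
  | nil => simp [pmono]
  | cons a p ih =>
    obtain ⟨d, l⟩ := a
    rw [pmono, ev_cons, ev_cons, ih, cast_mod3, mono_mul, Nat.cast_mul]
    ring

theorem ev_pmul (x : ℕ → K) (p q : Pol) : ev x (pmul p q) = ev x p * ev x q := by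
  induction p with
  | nil => simp [pmul]
  | cons a p ih =>
    obtain ⟨c, k⟩ := a
    rw [pmul, ev_padd, ev_pmono, ih, ev_cons]
    ring

theorem ev_pcst (x : ℕ → K) (k : ℕ) : ev x (pcst k) = k := by
  unfold pcst
  split_ifs with h
  · simp [cast_zero3 h]
  · simp [cast_mod3, mono_one]

theorem two_eq_neg_one : ((2 : ℕ) : K) = -1 := by
  have : ((3 : ℕ) : K) = 0 := CharP.cast_eq_zero K 3
  push_cast at this ⊢
  linear_combination this

theorem ev_pneg (x : ℕ → K) (p : Pol) : ev x (pneg p) = -ev x p := by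
  rw [pneg, ev_pmono, mono_one, two_eq_neg_one]
  ring

theorem ev_ppow (x : ℕ → K) (p : Pol) (n : ℕ) : ev x (ppow p n) = ev x p ^ n := by
  induction n with
  | zero => simp [ppow, mono_one]
  | succ n ih => rw [ppow, ev_pmul, ih, pow_succ']

theorem ev_eq_of_peq (x : ℕ → K) {p q : Pol} (h : peq p q = true) : ev x p = ev x q := by
  rw [peq, List.isEmpty_iff] at h
  have := congrArg (ev x) h
  rw [ev_padd, ev_padd, ev_pneg, ev_nil] at this
  linear_combination this

/-- matrices of polynomials -/
abbrev PM : Type := ℕ → ℕ → Pol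

def psum (f : ℕ → Pol) : ℕ → Pol
  | 0 => []
  | n + 1 => padd (f n) (psum f n)

theorem ev_psum (x : ℕ → K) (f : ℕ → Pol) (n : ℕ) :
    ev x (psum f n) = ∑ l ∈ Finset.range n, ev x (f l) := by
  induction n with
  | zero => simp [psum]
  | succ n ih => rw [psum, ev_padd, ih, Finset.sum_range_succ, add_comm]

/-- product, left factor inspected first -/
def mulL (N : ℕ) (A B : PM) : PM := fun i j => psum (fun l => pmul (A i l) (B l j)) N

/-- product, right factor inspected first -/
def mulR (N : ℕ) (A B : PM) : PM := fun i j => psum (fun l => pmul (B l j) (A i l)) N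

def allLt (f : ℕ → Bool) : ℕ → Bool
  | 0 => true
  | n + 1 => f n && allLt f n

theorem allLt_spec {f : ℕ → Bool} {n : ℕ} (h : allLt f n = true) {i : ℕ} (hi : i < n) :
    f i = true := by
  induction n with
  | zero => omega
  | succ n ih =>
    rw [allLt, Bool.and_eq_true] at h
    rcases Nat.lt_succ_iff_lt_or_eq.1 hi with h1 | rfl
    · exact ih h.2 h1
    · exact h.1

def meq (M N : ℕ) (A B : PM) : Bool := allLt (fun i => allLt (fun j => peq (A i j) (B i j)) N) M

/-- an index type numbered by `0, …, N - 1` -/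
structure Num (ι : Type) [Fintype ι] (N : ℕ) where
  f : ι → ℕ
  lt : ∀ i, f i < N
  sum : ∀ {R : Type} [AddCommMonoid R] (g : ℕ → R), ∑ l, g (f l) = ∑ l ∈ Finset.range N, g l

theorem Num.sum' {ι : Type} [Fintype ι] {N : ℕ} (a : Num ι N) {R : Type*} [AddCommMonoid R]
    (g : ℕ → R) : ∑ l, g (a.f l) = ∑ l ∈ Finset.range N, g l := by
  have := a.sum (R := Multiset ℕ) fun n => {n}
  have e := congrArg (Multiset.sumAddMonoidHom.comp (Multiset.mapAddMonoidHom g)) this
  rw [map_sum, map_sum] at e
  simpa using e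

def numFin (N : ℕ) : Num (Fin N) N where
  f := Fin.val
  lt := Fin.is_lt
  sum g := Fin.sum_univ_eq_sum_range g N

def numSum {ι κ : Type} [Fintype ι] [Fintype κ] {M N : ℕ} (a : Num ι M) (b : Num κ N) :
    Num (ι ⊕ κ) (M + N) where
  f := Sum.elim a.f fun i => M + b.f i
  lt := by
    rintro (i | i)
    · exact lt_of_lt_of_le (a.lt i) (Nat.le_add_right _ _)
    · exact Nat.add_lt_add_left (b.lt i) _
  sum g := by
    rw [Fintype.sum_sum_type, Finset.sum_range_add, ← a.sum, ← b.sum fun l => g (M + l)]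
    rfl

variable {ι κ μ : Type} [Fintype ι] [Fintype κ] [Fintype μ] {M N L : ℕ}

/-- the matrix of values -/
noncomputable def fmat (a : Num ι M) (b : Num κ N) (x : ℕ → K) (A : PM) : Matrix ι κ K :=
  Matrix.of fun i j => ev x (A (a.f i) (b.f j))

omit [CharP K 3] in
theorem fmat_apply (a : Num ι M) (b : Num κ N) (x : ℕ → K) (A : PM) (i : ι) (j : κ) :
    fmat a b x A i j = ev x (A (a.f i) (b.f j)) := rfl

theorem fmat_mulL (a : Num ι M) (b : Num κ N) (c : Num μ L) (x : ℕ → K) (A B : PM) :
    fmat a c x (mulL N A B) = fmat a b x A * fmat b c x B := by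
  ext i j
  rw [mul_apply, fmat_apply, mulL, ev_psum, ← b.sum']
  simp only [ev_pmul, fmat_apply]

theorem fmat_mulR (a : Num ι M) (b : Num κ N) (c : Num μ L) (x : ℕ → K) (A B : PM) :
    fmat a c x (mulR N A B) = fmat a b x A * fmat b c x B := by
  ext i j
  rw [mul_apply, fmat_apply, mulR, ev_psum, ← b.sum']
  simp only [ev_pmul, fmat_apply, mul_comm]

theorem fmat_eq_of_meq (a : Num ι M) (b : Num κ N) (x : ℕ → K) {A B : PM}
    (h : meq M N A B = true) : fmat a b x A = fmat a b x B := by
  ext i j
  exact ev_eq_of_peq x (allLt_spec (allLt_spec h (a.lt i)) (b.lt j))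

/-- constant matrix from a table -/
def cmat (T : List (List ℕ)) : PM := fun i j => pcst ((T.getD i []).getD j 0)

def mone : PM := fun i j => if i = j then [(1, 1)] else []

def mzero : PM := fun _ _ => []

def mtr (A : PM) : PM := fun i j => A j i

omit [CharP K 3] in
theorem fmat_mtr (a : Num ι M) (b : Num κ N) (x : ℕ → K) (A : PM) :
    fmat a b x (mtr A) = (fmat b a x A)ᵀ := rfl

omit [CharP K 3] in
theorem fmat_mzero (a : Num ι M) (b : Num κ N) (x : ℕ → K) : fmat a b x mzero = 0 := rfl

omit [CharP K 3] in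
theorem fmat_mone [DecidableEq ι] (a : Num ι M) (ha : Function.Injective a.f) (x : ℕ → K) :
    fmat a a x mone = 1 := by
  ext i j
  rw [fmat_apply, mone, one_apply]
  by_cases h : i = j
  · simp [h, mono_one]
  · rw [if_neg (ha.ne h), if_neg h, ev_nil]

theorem fmat_cmat (a : Num ι M) (b : Num κ N) (x y : ℕ → K) (T : List (List ℕ)) :
    fmat a b x (cmat T) = fmat a b y (cmat T) := by
  ext i j
  simp only [fmat_apply, cmat, ev_pcst]

def mtrace (N : ℕ) (A : PM) : Pol := psum (fun i => A i i) N

theorem trace_fmat (a : Num ι M) (x : ℕ → K) (A : PM) :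
    (fmat a a x A).trace = ev x (mtrace M A) := by
  rw [mtrace, ev_psum, ← a.sum']
  rfl

end Cfsg.Agent.Spec.PR
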