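import Cfsg.Agent.Spec.Ree1
import Cfsg.Agent.Spec.EigOrb

/-!
The 7-dimensional representation of the Ree group `²G₂(q)`.
-/

set_option autoImplicit false

namespace Cfsg.Agent.Spec.Ree

open Matrix Cfsg.Agent.Spec.PR Cfsg.Lie

def lowL (A : PM) : PM := fun i j => A (7 + i) j
def lowR (A : PM) : PM := fun i j => A (7 + i) (7 + j)
def QcP : PM := fun i j => cmat QT (7 + 7 + i) j

def rootChk (r : ℕ) : Bool :=
  meq 7 7 (lowL (rootM r (pvar 2))) mzero &&
  meq 7 7 (mulL 7 (mulR 7 (mtr (rootM r (pvar 2))) (cmat ST)) (rootM r (pvar 2))) (cmat ST) &&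
  meq 21 (7 + 7) (mulR 21 (L2p (rootM r (pvar 2))) (cmat PT))
    (mulL (7 + 7) (cmat PT) (rootM r (pvar 2))) &&
  meq 7 21 (mulL 21 QcP (L2p (rootM r (pvar 2)))) (mulR 7 (rootM r (pvar 2)) QcP)

theorem root_ok : allLt rootChk 12 = true := by decide +kernel

theorem QP_ok : meq (7 + 7 + 7) (7 + 7 + 7) (mulL 21 (cmat QT) (cmat PT)) mone = true := by
  decide +kernel

theorem SS_ok : meq 7 7 (mulL 7 (cmat ST) (cmat ST)) mone = true := by decide +kernel

theorem St_ok : meq 7 7 (mtr (cmat ST)) (cmat ST) = true := by decide +kernel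

/-- the six parameters of the generating words -/
def parU (a b c A B C : Pol) : List (ℕ × Pol) :=
  [(7, a), (6, A), (8, padd (pmul A a) b), (9, padd (pmul A (pmul a a)) c), (10, B), (11, C)]

def parV (a b c A B C : Pol) : List (ℕ × Pol) :=
  [(4, pneg a), (5, pneg A), (3, pneg (padd (pmul A a) b)),
    (2, pneg (padd (pmul A (pmul a a)) c)), (1, pneg B), (0, pneg C)]

def wordA : List (ℕ × Pol) → PM
  | [] => mone
  | (r, p) :: w => mulL 7 (rootM r p) (wordA w)

def wordB : List (ℕ × Pol) → PM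
  | [] => mone
  | (r, p) :: w => mulL 7 (lowR (rootM r p)) (wordB w)

theorem twU_ok : meq 7 7 (wordB (parU (pvar 2) (pvar 3) (pvar 5) (pvar 7) (pvar 11) (pvar 13)))
    (wordA (parU (pvar 7) (pvar 11) (pvar 13) (ppow (pvar 2) 3) (ppow (pvar 3) 3)
      (ppow (pvar 5) 3))) = true := by decide +kernel

theorem twV_ok : meq 7 7 (wordB (parV (pvar 2) (pvar 3) (pvar 5) (pvar 7) (pvar 11) (pvar 13)))
    (wordA (parV (pvar 7) (pvar 11) (pvar 13) (ppow (pvar 2) 3) (ppow (pvar 3) 3)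
      (ppow (pvar 5) 3))) = true := by decide +kernel

variable {K : Type*} [Field K] [CharP K 3]

variable (K) in
noncomputable def Sm : Matrix (Fin 7) (Fin 7) K := fmat n7 n7 (fun _ => 0) (cmat ST)

variable (K) in
noncomputable def Pm : Matrix (Fin 21) I21 K := fmat n21 m21 (fun _ => 0) (cmat PT)

variable (K) in
noncomputable def Qm : Matrix I21 (Fin 21) K := fmat m21 n21 (fun _ => 0) (cmat QT)

variable (K) in
noncomputable def P1 : Matrix (Fin 21) I14 K := (Pm K).submatrix id Sum.inl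

variable (K) in
noncomputable def Qc : Matrix (Fin 7) (Fin 21) K := (Qm K).submatrix Sum.inr id

theorem Qm_mul_Pm : Qm K * Pm K = 1 := by
  rw [Qm, Pm, ← fmat_mulL, fmat_eq_of_meq _ _ _ QP_ok, fmat_mone]
  decide +kernel

theorem Sm_mul_Sm : Sm K * Sm K = 1 := by
  rw [Sm, ← fmat_mulL, fmat_eq_of_meq _ _ _ SS_ok, fmat_mone]
  exact Fin.val_injective

theorem Sm_transpose : (Sm K)ᵀ = Sm K := by
  rw [Sm, ← fmat_mtr, fmat_eq_of_meq _ _ _ St_ok]

/-- invariants of the elements of `G₂(K)` -/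
structure Good (G : Matrix I14 I14 K) : Prop where
  low : G.toBlocks₂₁ = 0
  orth : G.toBlocks₁₁ᵀ * Sm K * G.toBlocks₁₁ = Sm K
  sub : L2 G.toBlocks₁₁ * P1 K = P1 K * G
  quo : Qc K * L2 G.toBlocks₁₁ = G.toBlocks₁₁ * Qc K

omit [CharP K 3] in
theorem blk11_mul {G H : Matrix I14 I14 K} (hH : H.toBlocks₂₁ = 0) :
    (G * H).toBlocks₁₁ = G.toBlocks₁₁ * H.toBlocks₁₁ := by
  rw [← fromBlocks_toBlocks G, ← fromBlocks_toBlocks H, fromBlocks_multiply]
  simp [hH]

omit [CharP K 3] in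
theorem blk22_mul {G H : Matrix I14 I14 K} (hG : G.toBlocks₂₁ = 0) :
    (G * H).toBlocks₂₂ = G.toBlocks₂₂ * H.toBlocks₂₂ := by
  rw [← fromBlocks_toBlocks G, ← fromBlocks_toBlocks H, fromBlocks_multiply]
  simp [hG]

omit [CharP K 3] in
theorem blk11_one : (1 : Matrix I14 I14 K).toBlocks₁₁ = 1 := by
  rw [← fromBlocks_one, toBlocks_fromBlocks₁₁]

omit [CharP K 3] in
theorem blk22_one : (1 : Matrix I14 I14 K).toBlocks₂₂ = 1 := by
  rw [← fromBlocks_one, toBlocks_fromBlocks₂₂]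

omit [CharP K 3] in
theorem Good.one : Good (1 : Matrix I14 I14 K) where
  low := by rw [← fromBlocks_one, toBlocks_fromBlocks₂₁]
  orth := by simp [blk11_one]
  sub := by simp [blk11_one, L2_one]
  quo := by simp [blk11_one, L2_one]

omit [CharP K 3] in
theorem Good.mul {G H : Matrix I14 I14 K} (hG : Good G) (hH : Good H) : Good (G * H) where
  low := by
    rw [← fromBlocks_toBlocks G, ← fromBlocks_toBlocks H, fromBlocks_multiply]
    simp [hG.low, hH.low]
  orth := by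
    rw [blk11_mul hH.low, transpose_mul]
    calc _ = H.toBlocks₁₁ᵀ * (G.toBlocks₁₁ᵀ * Sm K * G.toBlocks₁₁) * H.toBlocks₁₁ := by
          simp only [Matrix.mul_assoc]
      _ = _ := by rw [hG.orth, hH.orth]
  sub := by
    rw [blk11_mul hH.low, L2_mul, Matrix.mul_assoc, hH.sub, ← Matrix.mul_assoc, hG.sub,
      Matrix.mul_assoc]
  quo := by
    rw [blk11_mul hH.low, L2_mul, ← Matrix.mul_assoc, hG.quo, Matrix.mul_assoc, hH.quo,
      Matrix.mul_assoc]

theorem good_root {r : ℕ} (hr : r < 12) (t : K) :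
    Good ((chevG2.x K r t).submatrix epsE epsE) := by
  have h := allLt_spec root_ok hr
  simp only [rootChk, Bool.and_eq_true] at h
  obtain ⟨⟨⟨h1, h2⟩, h3⟩, h4⟩ := h
  rw [x_eq hr]
  have e11 : (fmat n14 n14 (fun _ => t) (rootM r (pvar 2))).toBlocks₁₁ =
      fmat n7 n7 (fun _ => t) (rootM r (pvar 2)) := rfl
  have eS : Sm K = fmat n7 n7 (fun _ => t) (cmat ST) := fmat_cmat _ _ _ _ _
  have eP : P1 K = fmat n21 n14 (fun _ => t) (cmat PT) := by
    rw [P1, Pm, fmat_cmat _ _ _ (fun _ => t)]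
    rfl
  have eQ : Qc K = fmat n7 n21 (fun _ => t) QcP := by
    rw [Qc, Qm, fmat_cmat _ _ _ (fun _ => t)]
    rfl
  refine ⟨?_, ?_, ?_, ?_⟩
  · exact fmat_eq_of_meq n7 n7 (fun _ => t) h1
  · rw [e11, eS, ← fmat_mtr, ← fmat_mulR, ← fmat_mulL, fmat_eq_of_meq _ _ _ h2]
  · rw [e11, eP, ← fmat_L2p, ← fmat_mulR, ← fmat_mulL, fmat_eq_of_meq _ _ _ h3]
  · rw [e11, eQ, ← fmat_L2p, ← fmat_mulL, ← fmat_mulR, fmat_eq_of_meq _ _ _ h4]

omit [CharP K 3] in
theorem wordMat_cons (a : ℕ × K) (w : List (ℕ × K)) :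
    (chevG2.wordMat K (a :: w)).submatrix epsE epsE =
      (chevG2.x K a.1 a.2).submatrix epsE epsE * (chevG2.wordMat K w).submatrix epsE epsE := by
  rw [submatrix_mul_equiv]
  simp [ChevalleyDatum.wordMat]

omit [CharP K 3] in
theorem wordMat_nil : (chevG2.wordMat K []).submatrix epsE epsE = 1 := by
  simp [ChevalleyDatum.wordMat]

theorem good_word (w : List (ℕ × K)) (hw : ∀ a ∈ w, a.1 < 12) :
    Good ((chevG2.wordMat K w).submatrix epsE epsE) := by
  induction w with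
  | nil => rw [wordMat_nil]; exact Good.one
  | cons a w ih =>
    rw [wordMat_cons]
    exact (good_root (hw a List.mem_cons_self) _).mul
      (ih fun b hb => hw b (List.mem_cons_of_mem _ hb))

/-- evaluation of a word with polynomial parameters -/
noncomputable def evW (x : ℕ → K) (w : List (ℕ × Pol)) : List (ℕ × K) :=
  w.map fun a => (a.1, ev x a.2)

theorem evW_lt (x : ℕ → K) {w : List (ℕ × Pol)} (hw : ∀ a ∈ w, a.1 < 12) :
    ∀ a ∈ evW x w, a.1 < 12 := by
  intro a ha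
  obtain ⟨b, hb, rfl⟩ := List.mem_map.1 ha
  exact hw b hb

omit [CharP K 3] in
theorem evW_cons (x : ℕ → K) (r : ℕ) (p : Pol) (w : List (ℕ × Pol)) :
    evW x ((r, p) :: w) = (r, ev x p) :: evW x w := rfl

theorem blk11_word (x : ℕ → K) (w : List (ℕ × Pol)) (hw : ∀ a ∈ w, a.1 < 12) :
    ((chevG2.wordMat K (evW x w)).submatrix epsE epsE).toBlocks₁₁ = fmat n7 n7 x (wordA w) := by
  induction w with
  | nil => rw [evW, List.map_nil, wordMat_nil, blk11_one, wordA, fmat_mone _ Fin.val_injective]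
  | cons a w ih =>
    obtain ⟨r, p⟩ := a
    have hw' : ∀ a ∈ w, a.1 < 12 := fun b hb => hw b (List.mem_cons_of_mem _ hb)
    rw [evW_cons, wordMat_cons, blk11_mul (good_word _ (evW_lt x hw')).low, wordA,
      fmat_mulL n7 n7 n7, ← ih hw', x_eq' (hw _ List.mem_cons_self)]
    rfl

theorem blk22_word (x : ℕ → K) (w : List (ℕ × Pol)) (hw : ∀ a ∈ w, a.1 < 12) :
    ((chevG2.wordMat K (evW x w)).submatrix epsE epsE).toBlocks₂₂ = fmat n7 n7 x (wordB w) := by
  induction w with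
  | nil => rw [evW, List.map_nil, wordMat_nil, blk22_one, wordB, fmat_mone _ Fin.val_injective]
  | cons a w ih =>
    obtain ⟨r, p⟩ := a
    have hw' : ∀ a ∈ w, a.1 < 12 := fun b hb => hw b (List.mem_cons_of_mem _ hb)
    rw [evW_cons, wordMat_cons, blk22_mul (good_root (hw _ List.mem_cons_self) _).low,
      wordB, fmat_mulL n7 n7 n7, ← ih hw', x_eq' (hw _ List.mem_cons_self)]
    rfl

omit [CharP K 3] in
theorem x_map (φ : K →+* K) (r : ℕ) (t : K) :
    (chevG2.x K r t).map φ = chevG2.x K r (φ t) := by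
  unfold ChevalleyDatum.x
  split_ifs with h
  · ext i j
    rw [map_apply, xMat_eq, xMat_eq, map_list_sum, List.map_map]
    congr 1
    refine List.map_congr_left fun km _ => ?_
    simp
  · exact Matrix.map_one _ φ.map_zero φ.map_one

omit [CharP K 3] in
theorem wordMat_map (φ : K →+* K) (w : List (ℕ × K)) :
    (chevG2.wordMat K w).map φ = chevG2.wordMat K (w.map fun a => (a.1, φ a.2)) := by
  induction w with
  | nil => simp [ChevalleyDatum.wordMat]
  | cons a w ih =>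
    simp only [ChevalleyDatum.wordMat, List.map_cons, List.prod_cons] at ih ⊢
    rw [Matrix.map_mul, ih, x_map]

/-- the six variables -/
def vars (a b c A B C : K) : ℕ → K := fun n =>
  if n = 2 then a else if n = 3 then b else if n = 5 then c else if n = 7 then A
  else if n = 11 then B else C

theorem evW_parU (x : ℕ → K) (a b c A B C : Pol) : evW x (parU a b c A B C) =
    [(7, ev x a), (6, ev x A), (8, ev x A * ev x a + ev x b),
      (9, ev x A * (ev x a * ev x a) + ev x c), (10, ev x B), (11, ev x C)] := by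
  simp [evW, parU, ev_padd, ev_pmul]

theorem evW_parV (x : ℕ → K) (a b c A B C : Pol) : evW x (parV a b c A B C) =
    [(4, -ev x a), (5, -ev x A), (3, -(ev x A * ev x a + ev x b)),
      (2, -(ev x A * (ev x a * ev x a) + ev x c)), (1, -ev x B), (0, -ev x C)] := by
  simp [evW, parV, ev_padd, ev_pmul, ev_pneg]

omit [CharP K 3] in
theorem reeWordU_eq (e : ℕ) (t u v : K) : reeWordU e t u v =
    [(7, t ^ e), (6, t), (8, t * t ^ e + u ^ e), (9, t * (t ^ e * t ^ e) + v ^ e), (10, u),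
      (11, v)] := by
  simp only [reeWordU, g2a, g2b, g2ab, g2aab, g2aaab, g2aaabb]
  rw [pow_succ', pow_succ', two_mul, pow_add]

omit [CharP K 3] in
theorem reeWordV_eq (e : ℕ) (t u v : K) : reeWordV e t u v =
    [(4, -t ^ e), (5, -t), (3, -(t * t ^ e + u ^ e)), (2, -(t * (t ^ e * t ^ e) + v ^ e)),
      (1, -u), (0, -v)] := by
  rw [reeWordV, reeWordU_eq]
  rfl

theorem parU_lt (a b c A B C : Pol) : ∀ z ∈ parU a b c A B C, z.1 < 12 := by
  simp [parU]

theorem parV_lt (a b c A B C : Pol) : ∀ z ∈ parV a b c A B C, z.1 < 12 := by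
  simp [parV]

omit [CharP K 3] in
theorem ev_vars (a b c A B C : K) :
    ev (vars a b c A B C) (pvar 2) = a ∧ ev (vars a b c A B C) (pvar 3) = b ∧
    ev (vars a b c A B C) (pvar 5) = c ∧ ev (vars a b c A B C) (pvar 7) = A ∧
    ev (vars a b c A B C) (pvar 11) = B ∧ ev (vars a b c A B C) (pvar 13) = C := by
  rw [ev_pvar _ (by norm_num), ev_pvar _ (by norm_num), ev_pvar _ (by norm_num),
    ev_pvar _ (by norm_num), ev_pvar _ (by norm_num), ev_pvar _ (by norm_num)]
  simp [vars]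

theorem twist_gen (φ : K →+* K) {e : ℕ} (h1 : ∀ t : K, φ (t ^ e) = t)
    (h2 : ∀ t : K, φ t = (t ^ e) ^ 3) {w : List (ℕ × K)} (hw : w ∈ g2Words K e) :
    Good ((chevG2.wordMat K w).submatrix epsE epsE) ∧
      ((chevG2.wordMat K w).submatrix epsE epsE).toBlocks₂₂ =
        (((chevG2.wordMat K w).submatrix epsE epsE).toBlocks₁₁).map φ := by
  obtain ⟨t, u, v, hw⟩ := hw
  obtain ⟨e1, e2, e3, e4, e5, e6⟩ := ev_vars (t ^ e) (u ^ e) (v ^ e) t u v
  have hm : ∀ w : List (ℕ × K), (((chevG2.wordMat K w).submatrix epsE epsE).toBlocks₁₁).map φ =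
      ((chevG2.wordMat K (w.map fun a => (a.1, φ a.2))).submatrix epsE epsE).toBlocks₁₁ := by
    intro w
    rw [← wordMat_map]
    rfl
  rcases hw with rfl | rfl
  · have a1 : reeWordU e t u v = evW (vars (t ^ e) (u ^ e) (v ^ e) t u v)
        (parU (pvar 2) (pvar 3) (pvar 5) (pvar 7) (pvar 11) (pvar 13)) := by
      rw [evW_parU, e1, e2, e3, e4, e5, e6, reeWordU_eq]
    have a2 : ((reeWordU e t u v).map fun a => (a.1, φ a.2)) =
        evW (vars (t ^ e) (u ^ e) (v ^ e) t u v) (parU (pvar 7) (pvar 11) (pvar 13)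
          (ppow (pvar 2) 3) (ppow (pvar 3) 3) (ppow (pvar 5) 3)) := by
      rw [evW_parU, ev_ppow, ev_ppow, ev_ppow, e1, e2, e3, e4, e5, e6, reeWordU_eq]
      simp only [List.map_cons, List.map_nil, map_add, map_mul, h1, h2 t, h2 u, h2 v]
    refine ⟨by rw [a1]; exact good_word _ (evW_lt _ (parU_lt _ _ _ _ _ _)), ?_⟩
    rw [hm, a2, a1, blk11_word _ _ (parU_lt _ _ _ _ _ _), blk22_word _ _ (parU_lt _ _ _ _ _ _),
      fmat_eq_of_meq _ _ _ twU_ok]
  · have a1 : reeWordV e t u v = evW (vars (t ^ e) (u ^ e) (v ^ e) t u v)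
        (parV (pvar 2) (pvar 3) (pvar 5) (pvar 7) (pvar 11) (pvar 13)) := by
      rw [evW_parV, e1, e2, e3, e4, e5, e6, reeWordV_eq]
    have a2 : ((reeWordV e t u v).map fun a => (a.1, φ a.2)) =
        evW (vars (t ^ e) (u ^ e) (v ^ e) t u v) (parV (pvar 7) (pvar 11) (pvar 13)
          (ppow (pvar 2) 3) (ppow (pvar 3) 3) (ppow (pvar 5) 3)) := by
      rw [evW_parV, ev_ppow, ev_ppow, ev_ppow, e1, e2, e3, e4, e5, e6, reeWordV_eq]
      simp only [List.map_cons, List.map_nil, map_neg, map_add, map_mul, h1, h2 t, h2 u, h2 v]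
    refine ⟨by rw [a1]; exact good_word _ (evW_lt _ (parV_lt _ _ _ _ _ _)), ?_⟩
    rw [hm, a2, a1, blk11_word _ _ (parV_lt _ _ _ _ _ _), blk22_word _ _ (parV_lt _ _ _ _ _ _),
      fmat_eq_of_meq _ _ _ twV_ok]

omit [CharP K 3] in
theorem Good.eq_one {G : Matrix I14 I14 K} (hQ : Qm K * Pm K = 1) (h : Good G)
    (h1 : G.toBlocks₁₁ = 1) : G = 1 := by
  have h2 := h.sub
  rw [h1, L2_one, Matrix.one_mul] at h2
  have h3 : (Qm K).submatrix Sum.inl id * P1 K = (1 : Matrix I14 I14 K) := by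
    have : (Qm K).submatrix Sum.inl id * P1 K = (Qm K * Pm K).submatrix Sum.inl Sum.inl := rfl
    rw [this, hQ, submatrix_one _ Sum.inl_injective]
  calc G = (Qm K).submatrix Sum.inl id * (P1 K * G) := by rw [← Matrix.mul_assoc, h3, Matrix.one_mul]
    _ = 1 := by rw [← h2, h3]

theorem Good.eig_L2 {G : Matrix I14 I14 K} (h : Good G) :
    eig (L2 G.toBlocks₁₁) = eig G.toBlocks₁₁ + eig G.toBlocks₂₂ + eig G.toBlocks₁₁ := by
  have hQ := Qm_mul_Pm (K := K)
  let e : I21 ≃ Fin 21 := Fintype.equivOfCardEq (by simp)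
  have hT : Qm K * L2 G.toBlocks₁₁ * Pm K =
      fromBlocks G (Qm K * L2 G.toBlocks₁₁ * Pm K).toBlocks₁₂ 0 G.toBlocks₁₁ := by
    have b11 : (Qm K * L2 G.toBlocks₁₁ * Pm K).toBlocks₁₁ = G := by
      have : (Qm K * L2 G.toBlocks₁₁ * Pm K).toBlocks₁₁ =
          (Qm K).submatrix Sum.inl id * (L2 G.toBlocks₁₁ * P1 K) := by
        rw [Matrix.mul_assoc]
        rfl
      have h3 : (Qm K).submatrix Sum.inl id * P1 K = (Qm K * Pm K).submatrix Sum.inl Sum.inl := rfl
      rw [this, h.sub, ← Matrix.mul_assoc, h3, hQ, submatrix_one _ Sum.inl_injective,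
        Matrix.one_mul]
    have b21 : (Qm K * L2 G.toBlocks₁₁ * Pm K).toBlocks₂₁ = 0 := by
      have : (Qm K * L2 G.toBlocks₁₁ * Pm K).toBlocks₂₁ =
          Qc K * (L2 G.toBlocks₁₁ * P1 K) := by
        rw [Matrix.mul_assoc]
        rfl
      have h3 : Qc K * P1 K = (Qm K * Pm K).toBlocks₂₁ := rfl
      rw [this, h.sub, ← Matrix.mul_assoc, h3, hQ, ← fromBlocks_one, toBlocks_fromBlocks₂₁,
        Matrix.zero_mul]
    have b22 : (Qm K * L2 G.toBlocks₁₁ * Pm K).toBlocks₂₂ = G.toBlocks₁₁ := by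
      have : (Qm K * L2 G.toBlocks₁₁ * Pm K).toBlocks₂₂ =
          Qc K * L2 G.toBlocks₁₁ * (Pm K).submatrix id Sum.inr := rfl
      have h3 : Qc K * (Pm K).submatrix id Sum.inr = (Qm K * Pm K).toBlocks₂₂ := rfl
      rw [this, h.quo, Matrix.mul_assoc, h3, hQ, ← fromBlocks_one, toBlocks_fromBlocks₂₂,
        Matrix.mul_one]
    conv_lhs => rw [← fromBlocks_toBlocks (Qm K * L2 G.toBlocks₁₁ * Pm K), b11, b21, b22]
  have h1 : eig (Qm K * L2 G.toBlocks₁₁ * Pm K) = eig (L2 G.toBlocks₁₁) := by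
    rw [← eig_reindex e.symm (L2 G.toBlocks₁₁)]
    have hq : (Qm K).submatrix id e * (Pm K).submatrix e id = 1 := by
      rw [submatrix_mul_equiv, submatrix_id_id, hQ]
    refine eig_conj (P := (Qm K).submatrix id e) (Q := (Pm K).submatrix e id)
      (mul_eq_one_comm.1 hq) ?_
    rw [reindex_apply, Equiv.symm_symm, submatrix_mul_equiv, submatrix_mul_equiv, submatrix_id_id]
  rw [← h1, hT, eig_fromBlocks_zero₂₁]
  refine congrArg (· + eig G.toBlocks₁₁) ?_
  have hG : G = fromBlocks G.toBlocks₁₁ G.toBlocks₁₂ 0 G.toBlocks₂₂ := by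
    rw [← h.low, fromBlocks_toBlocks]
  exact (congrArg eig hG).trans (eig_fromBlocks_zero₂₁ _ _ _)

end Cfsg.Agent.Spec.Ree
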