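import Cfsg.Agent.Spec.Eigen

/-!
Triangularization over an algebraically closed field.
-/

set_option autoImplicit false

namespace Cfsg.Agent.Spec

open Polynomial Matrix Module

universe u

theorem exists_basis_triangular {Ω : Type*} [Field Ω] [IsAlgClosed Ω] (n : ℕ) :
    ∀ (V : Type u) [AddCommGroup V] [Module Ω V] [FiniteDimensional Ω V] (f : End Ω V),
      finrank Ω V = n → ∃ b : Basis (Fin n) Ω V, ∀ i j, i < j → b.repr (f (b j)) i = 0 := by
  induction n with
  | zero =>
    intro V _ _ _ f h
    exact ⟨finBasisOfFinrankEq Ω V h, fun i => i.elim0⟩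
  | succ n ih =>
    intro V _ _ _ f h
    haveI : Nontrivial V := nontrivial_of_finrank_eq_succ h
    obtain ⟨μ, hμ⟩ := End.exists_eigenvalue f
    have h1 : LinearMap.range (f - μ • (1 : End Ω V)) < ⊤ := by
      rw [lt_top_iff_ne_top, Ne, LinearMap.range_eq_top, ← LinearMap.injective_iff_surjective]
      intro hi
      obtain ⟨v, hv⟩ := hμ.exists_hasEigenvector
      refine hv.2 (hi ?_)
      simp [hv.apply_eq_smul]
    obtain ⟨φ, hφ0, hφ⟩ := Submodule.exists_le_ker_of_lt_top _ h1
    obtain ⟨y0, hy0⟩ : ∃ y, φ y ≠ 0 := by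
      by_contra hc
      push Not at hc
      exact hφ0 (LinearMap.ext hc)
    set y := (φ y0)⁻¹ • y0 with hy
    have hy1 : φ y = 1 := by simp [hy, hy0]
    have hinv : ∀ w ∈ LinearMap.ker φ, f w ∈ LinearMap.ker φ := by
      intro w hw
      have := hφ (LinearMap.mem_range_self _ w)
      simp only [LinearMap.mem_ker, LinearMap.sub_apply, LinearMap.smul_apply, End.one_apply,
        map_sub, map_smul] at this hw ⊢
      rw [hw] at this
      simpa using this
    have hr : finrank Ω (LinearMap.ker φ) = n := by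
      have h2 := LinearMap.finrank_range_add_finrank_ker φ
      have h3 : LinearMap.range φ = ⊤ := LinearMap.range_eq_top.2 fun c => ⟨c • y, by simp [hy1]⟩
      rw [h3, finrank_top, finrank_self, h] at h2
      omega
    obtain ⟨b, hb⟩ := ih (LinearMap.ker φ) (f.restrict hinv) hr
    have hli : ∀ (c : Ω), ∀ x ∈ LinearMap.ker φ, c • y + x = 0 → c = 0 := by
      intro c x hx e
      have := congrArg φ e
      simpa [hy1, LinearMap.mem_ker.1 hx] using this
    have hsp : ∀ z : V, ∃ c : Ω, z + c • y ∈ LinearMap.ker φ := fun z =>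
      ⟨-φ z, by simp [hy1]⟩
    refine ⟨Basis.mkFinCons y b hli hsp, fun i j hij => ?_⟩
    obtain ⟨j, rfl⟩ := Fin.exists_succ_eq.2 (Fin.pos_iff_ne_zero.1 (lt_of_le_of_lt (Fin.zero_le _) hij))
    set B := Basis.mkFinCons y b hli hsp with hB
    have hBs : ∀ k, B (Fin.succ k) = (b k : V) := fun k => by
      rw [hB, Basis.coe_mkFinCons]; rfl
    have e : f (B j.succ) = ∑ k, b.repr (f.restrict hinv (b j)) k • B k.succ := by
      have := congrArg Subtype.val (b.sum_repr (f.restrict hinv (b j)))
      rw [LinearMap.restrict_coe_apply] at this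
      rw [hBs]
      refine this.symm.trans ?_
      rw [Submodule.coe_sum]
      exact Finset.sum_congr rfl fun k _ => by rw [hBs, Submodule.coe_smul]
    rw [e]
    simp only [map_sum, map_smul, Basis.repr_self, Finsupp.coe_finset_sum, Finset.sum_apply,
      Finsupp.smul_apply, Finsupp.single_apply, smul_eq_mul]
    refine Finset.sum_eq_zero fun k _ => ?_
    split_ifs with hk
    · subst hk
      rw [hb k j (Fin.succ_lt_succ_iff.1 hij), zero_mul]
    · exact mul_zero _

theorem exists_conj_triangular {Ω : Type*} [Field Ω] [IsAlgClosed Ω] {n : ℕ}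
    (A : Matrix (Fin n) (Fin n) Ω) :
    ∃ P Q T : Matrix (Fin n) (Fin n) Ω, Q * P = 1 ∧ A = P * T * Q ∧ T.IsUpperTriangular := by
  obtain ⟨b, hb⟩ := exists_basis_triangular n (Fin n → Ω) (toLin' Aᵀ) (by simp)
  refine ⟨(b.toMatrix (Pi.basisFun Ω (Fin n)))ᵀ, ((Pi.basisFun Ω (Fin n)).toMatrix b)ᵀ,
    (LinearMap.toMatrix b b (toLin' Aᵀ))ᵀ, ?_, ?_, fun i j hij => ?_⟩
  · rw [← transpose_mul, Basis.toMatrix_mul_toMatrix_flip, transpose_one]
  · rw [← transpose_mul, ← transpose_mul, ← Matrix.mul_assoc,
      basis_toMatrix_mul_linearMap_toMatrix_mul_basis_toMatrix]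
    simp
  · rw [transpose_apply, LinearMap.toMatrix_apply]
    exact hb j i hij

theorem charpoly_conj' {R n : Type*} [CommRing R] [Fintype n] [DecidableEq n]
    {P Q T : Matrix n n R} (h : Q * P = 1) : (P * T * Q).charpoly = T.charpoly := by
  rw [charpoly_mul_comm, ← Matrix.mul_assoc, h, Matrix.one_mul]

theorem eig_of_triangular {F n : Type*} [Field F] [Fintype n] [LinearOrder n]
    {A : Matrix n n F} {P Q T : Matrix n n (AlgebraicClosure F)} (h : Q * P = 1)
    (e : A.map (algebraMap F _) = P * T * Q) (hT : T.IsUpperTriangular) :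
    eig A = Finset.univ.val.map fun i => T i i := by
  refine eig_eq_of_charpoly ?_
  rw [← charpoly_map, e, charpoly_conj' h, charpoly_of_isUpperTriangular T hT, Multiset.map_map]
  rfl

theorem eig_neg {F : Type*} [Field F] {n : ℕ} (A : Matrix (Fin n) (Fin n) F) :
    eig (-A) = (eig A).map fun x => -x := by
  obtain ⟨P, Q, T, h, e, hT⟩ := exists_conj_triangular (A.map (algebraMap F (AlgebraicClosure F)))
  rw [eig_of_triangular h e hT, eig_of_triangular (T := -T) h
    (by rw [Matrix.map_neg _ (map_neg _), e]; simp) (fun i j hij => by simp [hT hij]),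
    Multiset.map_map]
  rfl

end Cfsg.Agent.Spec
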