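import Cfsg.Agent.Spec.Ree1
import Cfsg.Agent.Spec.Triang

/-!
Eigenvalue analysis for the Ree groups: pure algebra.
-/

set_option autoImplicit false

namespace Cfsg.Agent.Spec.Ree

open Matrix

/-- products of pairs -/
def pp {R : Type*} [CommMonoid R] (M : Multiset R) : Multiset R :=
  (M.powersetCard 2).map Multiset.prod

theorem pp_zero {R : Type*} [CommMonoid R] : pp (0 : Multiset R) = 0 := rfl

theorem pp_cons {R : Type*} [CommMonoid R] (a : R) (M : Multiset R) :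
    pp (a ::ₘ M) = M.map (a * ·) + pp M := by
  rw [pp, Multiset.powersetCard_cons, Multiset.powersetCard_one, Multiset.map_add, add_comm,
    Multiset.map_map, Multiset.map_map]
  congr 1
  refine Multiset.map_congr rfl fun x _ => ?_
  simp

theorem prod_pp {R : Type*} [CommMonoid R] (M : Multiset R) :
    (pp M).prod * M.prod = M.prod ^ Multiset.card M := by
  induction M using Multiset.induction_on with
  | empty => simp [pp_zero]
  | cons a M ih =>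
    rw [pp_cons, Multiset.prod_add, Multiset.prod_map_mul, Multiset.map_const',
      Multiset.prod_replicate, Multiset.map_id', Multiset.prod_cons, Multiset.card_cons, mul_pow,
      pow_succ, pow_succ, ← ih]
    ac_rfl

theorem L2_triangular {R : Type*} [CommRing R] {T : Matrix (Fin 7) (Fin 7) R}
    (h : T.IsUpperTriangular) : (L2 T).IsUpperTriangular := by
  have h1 : ∀ a b : Fin 21, b < a → (pi' b < pi' a ∨ pj' b < pj' a) ∧ pi' b < pj' a := by
    decide +kernel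
  intro a b hab
  obtain ⟨h2, h3⟩ := h1 a b hab
  have h4 : T (pj' a) (pi' b) = 0 := h h3
  rcases h2 with h2 | h2
  · have : T (pi' a) (pi' b) = 0 := h h2
    simp [L2, this, h4]
  · have : T (pj' a) (pj' b) = 0 := h h2
    simp [L2, this, h4]

theorem eig_L2 {F : Type*} [Field F] (A : Matrix (Fin 7) (Fin 7) F) :
    eig (L2 A) = pp (eig A) := by
  obtain ⟨P, Q, T, h, e, hT⟩ := exists_conj_triangular (A.map (algebraMap F (AlgebraicClosure F)))
  have h1 : ∀ a : Fin 21, pi' a < pj' a := by decide +kernel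
  rw [eig_of_triangular h e hT, eig_of_triangular (P := L2 P) (Q := L2 Q) (T := L2 T)
    (by rw [← L2_mul, h, L2_one]) (by rw [← L2_map, e, L2_mul, L2_mul]) (L2_triangular hT)]
  have e2 : (fun a => L2 T a a) = fun a => T (pi' a) (pi' a) * T (pj' a) (pj' a) := by
    funext a
    have : T (pj' a) (pi' a) = 0 := hT (h1 a)
    simp [L2, this]
  rw [e2, Fin.univ_val_map, Fin.univ_val_map]
  simp only [List.ofFn_succ, List.ofFn_zero, ← Multiset.cons_coe, Multiset.coe_nil, pp_cons,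
    Multiset.map_cons, Multiset.map_zero, pp_zero, Multiset.cons_add, zero_add]
  rfl

variable {Ω : Type*} [Field Ω]

theorem exists_pairs (k : ℕ) : ∀ M : Multiset Ω, Multiset.card M = 2 * k + 1 →
    (∀ x ∈ M, x ≠ 0) → M.map (·⁻¹) = M → M.prod = 1 →
    ∃ N : Multiset Ω, Multiset.card N = k ∧ M = 1 ::ₘ (N + N.map (·⁻¹)) := by
  classical
  induction k with
  | zero =>
    intro M hc _ _ hp
    obtain ⟨x, rfl⟩ := Multiset.card_eq_one.1 hc
    exact ⟨0, rfl, by simpa using hp⟩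
  | succ k ih =>
    intro M hc h0 hi hp
    obtain ⟨x, M', rfl⟩ : ∃ x M', M = x ::ₘ x⁻¹ ::ₘ M' := by
      by_cases h : ∃ x ∈ M, x⁻¹ ≠ x
      · obtain ⟨x, hx, hne⟩ := h
        have h1 : x⁻¹ ∈ M.erase x :=
          (Multiset.mem_erase_of_ne hne).2 (hi ▸ Multiset.mem_map_of_mem _ hx)
        exact ⟨x, (M.erase x).erase x⁻¹, by rw [Multiset.cons_erase h1, Multiset.cons_erase hx]⟩
      · push Not at h
        have hn : ¬ M.Nodup := by
          intro hn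
          have h2 : M.toFinset ⊆ {1, -1} := by
            intro x hx
            have hx' := Multiset.mem_toFinset.1 hx
            have : x * x = 1 := by
              nth_rewrite 1 [← h x hx']
              exact inv_mul_cancel₀ (h0 x hx')
            simpa using mul_self_eq_one_iff.1 this
          have h3 := Finset.card_le_card h2
          rw [Multiset.toFinset_card_of_nodup hn, hc] at h3
          have : ({1, -1} : Finset Ω).card ≤ 2 := Finset.card_le_two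
          omega
        rw [Multiset.nodup_iff_ne_cons_cons] at hn
        push Not at hn
        obtain ⟨x, M', e⟩ := hn
        exact ⟨x, M', by rw [h x (by simp [e]), e]⟩
    have hx : x ≠ 0 := h0 x (by simp)
    obtain ⟨N, hN, e⟩ := ih M' (by simp at hc; omega) (fun y hy => h0 y (by simp [hy]))
      (by
        rw [Multiset.map_cons, Multiset.map_cons, inv_inv, Multiset.cons_swap,
          Multiset.cons_inj_right, Multiset.cons_inj_right] at hi
        exact hi)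
      (by
        rw [Multiset.prod_cons, Multiset.prod_cons, ← mul_assoc, mul_inv_cancel₀ hx, one_mul] at hp
        exact hp)
    refine ⟨x ::ₘ N, by simp [hN], ?_⟩
    rw [e, Multiset.map_cons]
    simp only [← Multiset.singleton_add]
    abel

/-- the short weights -/
def sh (a b c : Ω) : Multiset Ω := {a, a⁻¹, b, b⁻¹, c, c⁻¹}

/-- products of weights -/
def r12 (a b c : Ω) : Multiset Ω :=
  {a * b, a * b⁻¹, a⁻¹ * b, a⁻¹ * b⁻¹, a * c, a * c⁻¹, a⁻¹ * c, a⁻¹ * c⁻¹, b * c, b * c⁻¹,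
    b⁻¹ * c, b⁻¹ * c⁻¹}

theorem pp_sh {a b c : Ω} (ha : a ≠ 0) (hb : b ≠ 0) (hc : c ≠ 0) :
    pp (1 ::ₘ sh a b c) = sh a b c + {1, 1, 1} + r12 a b c := by
  simp only [sh, r12, Multiset.insert_eq_cons, ← Multiset.cons_zero, pp_cons,
    Multiset.map_cons, Multiset.map_zero, pp_zero, one_mul, mul_inv_cancel₀ ha,
    mul_inv_cancel₀ hb, mul_inv_cancel₀ hc]
  simp only [Multiset.cons_zero, ← Multiset.singleton_add]
  abel

theorem sh_map (ψ : Ω →+* Ω) (a b c : Ω) : (sh a b c).map ψ = sh (ψ a) (ψ b) (ψ c) := by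
  simp [sh]

theorem sh_swap12 (a b c : Ω) : sh a b c = sh b a c := by
  simp only [sh, Multiset.insert_eq_cons, ← Multiset.singleton_add]
  abel

theorem sh_swap23 (a b c : Ω) : sh a b c = sh a c b := by
  simp only [sh, Multiset.insert_eq_cons, ← Multiset.singleton_add]
  abel

theorem sh_inv3 (a b c : Ω) : sh a b c⁻¹ = sh a b c := by
  simp only [sh, Multiset.insert_eq_cons, ← Multiset.singleton_add, inv_inv]
  abel

theorem sh_inv2 (a b c : Ω) : sh a b⁻¹ c = sh a b c := by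
  rw [sh_swap23, sh_inv3, sh_swap23]

theorem mem_sh {a b c x : Ω} :
    x ∈ sh a b c ↔ x = a ∨ x = a⁻¹ ∨ x = b ∨ x = b⁻¹ ∨ x = c ∨ x = c⁻¹ := by
  simp [sh]

theorem r12_of_prod {a b c : Ω} (h : a * b * c = 1) :
    r12 a b c = sh a b c + sh (a * b⁻¹) (b * c⁻¹) (c * a⁻¹) := by
  have e1 : a * b = c⁻¹ := eq_inv_of_mul_eq_one_left h
  have e2 : a * c = b⁻¹ := eq_inv_of_mul_eq_one_left (by rw [← h]; ring)
  have e3 : b * c = a⁻¹ := eq_inv_of_mul_eq_one_left (by rw [← h]; ring)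
  have e4 : a⁻¹ * b⁻¹ = c := by rw [← mul_inv, e1, inv_inv]
  have e5 : a⁻¹ * c⁻¹ = b := by rw [← mul_inv, e2, inv_inv]
  have e6 : b⁻¹ * c⁻¹ = a := by rw [← mul_inv, e3, inv_inv]
  simp only [sh, r12, Multiset.insert_eq_cons, ← Multiset.singleton_add, e1, e2, e3, e4, e5, e6,
    mul_inv, inv_inv, mul_comm c a⁻¹, mul_comm c⁻¹ a]
  abel

theorem fricke_cases {a b c : Ω} (ha : a ≠ 0) (hb : b ≠ 0) (hc : c ≠ 0)
    (h : (a + a⁻¹) ^ 2 + (b + b⁻¹) ^ 2 + (c + c⁻¹) ^ 2 - (a + a⁻¹) * (b + b⁻¹) * (c + c⁻¹) - 4 = 0) :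
    a * b * c = 1 ∨ a * b * c⁻¹ = 1 ∨ a * b⁻¹ * c = 1 ∨ a * b⁻¹ * c⁻¹ = 1 := by
  have : (a * b * c - 1) * (a * b * c⁻¹ - 1) * (a * b⁻¹ * c - 1) * (a * b⁻¹ * c⁻¹ - 1) =
      a ^ 2 * ((a + a⁻¹) ^ 2 + (b + b⁻¹) ^ 2 + (c + c⁻¹) ^ 2 -
        (a + a⁻¹) * (b + b⁻¹) * (c + c⁻¹) - 4) := by
    field_simp
    ring
  rw [h, mul_zero] at this
  simp only [mul_eq_zero, sub_eq_zero] at this
  tauto

variable [CharP Ω 3]

theorem fricke_zero (ψ : Ω →+* Ω) {a b c : Ω} (ha : a ≠ 0) (hb : b ≠ 0) (hc : c ≠ 0)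
    (hψ : ψ (ψ (sh a b c).sum) = (sh a b c).sum ^ 3)
    (h : r12 a b c = sh a b c + sh (ψ a) (ψ b) (ψ c)) :
    (a + a⁻¹) ^ 2 + (b + b⁻¹) ^ 2 + (c + c⁻¹) ^ 2 - (a + a⁻¹) * (b + b⁻¹) * (c + c⁻¹) - 4 = 0 := by
  have ha' : ψ a ≠ 0 := (map_ne_zero ψ).2 ha
  have hb' : ψ b ≠ 0 := (map_ne_zero ψ).2 hb
  have hc' : ψ c ≠ 0 := (map_ne_zero ψ).2 hc
  have hs : ∀ x y z : Ω, (sh x y z).sum = (x + x⁻¹) + (y + y⁻¹) + (z + z⁻¹) := by
    intro x y z
    simp only [sh, Multiset.insert_eq_cons, Multiset.sum_cons, Multiset.sum_singleton]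
    ring
  have hq : ∀ x y z : Ω, x ≠ 0 → y ≠ 0 → z ≠ 0 → ((sh x y z).map (· ^ 2)).sum =
      ((x + x⁻¹) ^ 2 - 2) + ((y + y⁻¹) ^ 2 - 2) + ((z + z⁻¹) ^ 2 - 2) := by
    intro x y z hx hy hz
    simp only [sh, Multiset.insert_eq_cons, Multiset.map_cons, Multiset.map_singleton,
      Multiset.sum_cons, Multiset.sum_singleton]
    field_simp
    ring
  have h1 : (a + a⁻¹) * (b + b⁻¹) + (a + a⁻¹) * (c + c⁻¹) + (b + b⁻¹) * (c + c⁻¹) =
      (a + a⁻¹) + (b + b⁻¹) + (c + c⁻¹) +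
        ((ψ a + (ψ a)⁻¹) + (ψ b + (ψ b)⁻¹) + (ψ c + (ψ c)⁻¹)) := by
    rw [← hs, ← hs, ← Multiset.sum_add, ← h]
    simp only [r12, Multiset.insert_eq_cons, Multiset.sum_cons, Multiset.sum_singleton]
    ring
  have h2 := congrArg ψ h1
  have h3 : ((a + a⁻¹) ^ 2 - 2) * ((b + b⁻¹) ^ 2 - 2) + ((a + a⁻¹) ^ 2 - 2) * ((c + c⁻¹) ^ 2 - 2) +
      ((b + b⁻¹) ^ 2 - 2) * ((c + c⁻¹) ^ 2 - 2) =
      ((a + a⁻¹) ^ 2 - 2) + ((b + b⁻¹) ^ 2 - 2) + ((c + c⁻¹) ^ 2 - 2) +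
        (((ψ a + (ψ a)⁻¹) ^ 2 - 2) + ((ψ b + (ψ b)⁻¹) ^ 2 - 2) + ((ψ c + (ψ c)⁻¹) ^ 2 - 2)) := by
    rw [← hq _ _ _ ha hb hc, ← hq _ _ _ ha' hb' hc', ← Multiset.sum_add, ← Multiset.map_add, ← h]
    simp only [r12, Multiset.insert_eq_cons, Multiset.map_cons, Multiset.map_singleton,
      Multiset.sum_cons, Multiset.sum_singleton]
    field_simp
    ring
  rw [hs] at hψ
  have e1 : ψ ((ψ a + (ψ a)⁻¹) + (ψ b + (ψ b)⁻¹) + (ψ c + (ψ c)⁻¹)) =
      ((a + a⁻¹) + (b + b⁻¹) + (c + c⁻¹)) ^ 3 := by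
    rw [← hψ]
    simp
  rw [map_add ψ (a + a⁻¹ + (b + b⁻¹) + (c + c⁻¹)), e1] at h2
  simp only [map_add, map_mul, map_inv₀] at h2
  have hm : c ∈ r12 a b c := by
    rw [h]
    simp [sh]
  have k : ∀ x y : Ω, x ≠ 0 → y ≠ 0 → ∀ z, (z = x * y ∨ z = x * y⁻¹ ∨ z = x⁻¹ * y ∨ z = x⁻¹ * y⁻¹) →
      (z + z⁻¹) ^ 2 - (x + x⁻¹) * (y + y⁻¹) * (z + z⁻¹) + (x + x⁻¹) ^ 2 + (y + y⁻¹) ^ 2 - 4 = 0 := by
    rintro x y hx hy z (rfl | rfl | rfl | rfl) <;> field_simp <;> ring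
  have k3 : (c + c⁻¹) ^ 2 - (a + a⁻¹) * (b + b⁻¹) * (c + c⁻¹) + (a + a⁻¹) ^ 2 + (b + b⁻¹) ^ 2 - 4 = 0
      ∨ (c + c⁻¹) ^ 2 - (a + a⁻¹) * (c + c⁻¹) * (c + c⁻¹) + (a + a⁻¹) ^ 2 + (c + c⁻¹) ^ 2 - 4 = 0
      ∨ (c + c⁻¹) ^ 2 - (b + b⁻¹) * (c + c⁻¹) * (c + c⁻¹) + (b + b⁻¹) ^ 2 + (c + c⁻¹) ^ 2 - 4 = 0 := by
    simp only [r12, Multiset.insert_eq_cons, Multiset.mem_cons, Multiset.mem_singleton] at hm
    rcases hm with e | e | e | e | e | e | e | e | e | e | e | e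
    · exact Or.inl (k a b ha hb c (by tauto))
    · exact Or.inl (k a b ha hb c (by tauto))
    · exact Or.inl (k a b ha hb c (by tauto))
    · exact Or.inl (k a b ha hb c (by tauto))
    · exact Or.inr (Or.inl (k a c ha hc c (by tauto)))
    · exact Or.inr (Or.inl (k a c ha hc c (by tauto)))
    · exact Or.inr (Or.inl (k a c ha hc c (by tauto)))
    · exact Or.inr (Or.inl (k a c ha hc c (by tauto)))
    · exact Or.inr (Or.inr (k b c hb hc c (by tauto)))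
    · exact Or.inr (Or.inr (k b c hb hc c (by tauto)))
    · exact Or.inr (Or.inr (k b c hb hc c (by tauto)))
    · exact Or.inr (Or.inr (k b c hb hc c (by tauto)))
  generalize a + a⁻¹ = α, b + b⁻¹ = β, c + c⁻¹ = γ, ψ a + (ψ a)⁻¹ = A, ψ b + (ψ b)⁻¹ = B,
    ψ c + (ψ c)⁻¹ = C at h1 h2 h3 e1 k3 ⊢
  have h4 : (α + β + γ) * (α ^ 2 + β ^ 2 + γ ^ 2 - α * β * γ - 4) = 0 := by grind
  rcases mul_eq_zero.1 h4 with h5 | h5
  swap
  · exact h5
  have h6 : A + B + C = 0 := by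
    rw [h5, zero_pow (by norm_num)] at e1
    exact (map_eq_zero ψ).1 e1
  have h7 : (α - β) ^ 2 = 0 := by grind
  have h8 : (α - γ) ^ 2 = 0 := by grind
  have h9 : β = α := by grind
  have h10 : γ = α := by grind
  subst h9 h10
  grind

theorem structure_thm (ψ : Ω →+* Ω) {M : Multiset Ω} (hc : Multiset.card M = 7)
    (h0 : ∀ x ∈ M, x ≠ 0) (hi : M.map (·⁻¹) = M) (hψ : ψ (ψ M.sum) = M.sum ^ 3)
    (h : pp M = M + M.map ψ + M) :
    ∃ a b c : Ω, a * b * c = 1 ∧ M = 1 ::ₘ sh a b c ∧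
      sh (ψ a) (ψ b) (ψ c) = sh (a * b⁻¹) (b * c⁻¹) (c * a⁻¹) := by
  have hp0 : M.prod ≠ 0 := Multiset.prod_ne_zero fun h => h0 0 h rfl
  have hp : M.prod = 1 := by
    have h1 : M.prod⁻¹ = M.prod := by
      conv_rhs => rw [← hi]
      rw [Multiset.prod_map_inv, Multiset.map_id']
    have h2 : M.prod * M.prod = 1 := by
      nth_rewrite 1 [← h1]
      exact inv_mul_cancel₀ hp0
    have h3 := prod_pp M
    rw [h, hc, Multiset.prod_add, Multiset.prod_add, ← map_multiset_prod] at h3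
    rcases mul_self_eq_one_iff.1 h2 with e | e
    · exact e
    · rw [e, map_neg, map_one] at h3
      grind
  obtain ⟨N, hN, e⟩ := exists_pairs 3 M hc h0 hi hp
  obtain ⟨a, b, c, rfl⟩ := Multiset.card_eq_three.1 hN
  have e' : M = 1 ::ₘ sh a b c := by
    rw [e]
    simp only [sh, Multiset.insert_eq_cons, Multiset.map_cons, Multiset.map_singleton,
      ← Multiset.singleton_add]
    abel
  have key : ∀ a b c : Ω, M = 1 ::ₘ sh a b c → r12 a b c = sh a b c + sh (ψ a) (ψ b) (ψ c) := by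
    intro a b c e'
    have ha : a ≠ 0 := h0 a (by simp [e', sh])
    have hb : b ≠ 0 := h0 b (by simp [e', sh])
    have hc : c ≠ 0 := h0 c (by simp [e', sh])
    rw [e', pp_sh ha hb hc, Multiset.map_cons, sh_map, map_one] at h
    refine add_left_cancel (a := sh a b c + {1, 1, 1}) (h.trans ?_)
    simp only [Multiset.insert_eq_cons, ← Multiset.singleton_add]
    abel
  have fin : ∀ a b c : Ω, a * b * c = 1 → M = 1 ::ₘ sh a b c → ∃ a b c : Ω, a * b * c = 1 ∧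
      M = 1 ::ₘ sh a b c ∧ sh (ψ a) (ψ b) (ψ c) = sh (a * b⁻¹) (b * c⁻¹) (c * a⁻¹) := by
    intro a b c h1 h2
    refine ⟨a, b, c, h1, h2, ?_⟩
    have := key a b c h2
    rw [r12_of_prod h1] at this
    exact (add_left_cancel this).symm
  have ha : a ≠ 0 := h0 a (by simp [e', sh])
  have hb : b ≠ 0 := h0 b (by simp [e', sh])
  have hc : c ≠ 0 := h0 c (by simp [e', sh])
  have hψ' : ψ (ψ (sh a b c).sum) = (sh a b c).sum ^ 3 := by
    rw [e', Multiset.sum_cons, map_add, map_add, map_one, map_one, add_pow_char, one_pow] at hψ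
    exact add_left_cancel hψ
  rcases fricke_cases ha hb hc (fricke_zero ψ ha hb hc hψ' (key a b c e')) with h1 | h1 | h1 | h1
  · exact fin _ _ _ h1 e'
  · exact fin _ _ _ h1 (by rw [sh_inv3, e'])
  · exact fin _ _ _ h1 (by rw [sh_inv2, e'])
  · exact fin _ _ _ h1 (by rw [sh_inv2, sh_inv3, e'])

end Cfsg.Agent.Spec.Ree
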