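import Cfsg.Agent.Spec.Ree3

/-!
Eigenvalue analysis for the Ree groups: the tori.
-/

set_option autoImplicit false

namespace Cfsg.Agent.Spec.Ree

variable {Ω : Type*} [Field Ω]

theorem inv_of_prod {x y z : Ω} (h : x * y * z = 1) :
    x⁻¹ = y * z ∧ y⁻¹ = x * z ∧ z⁻¹ = x * y :=
  ⟨(eq_inv_of_mul_eq_one_left (by rw [← h]; ring)).symm,
    (eq_inv_of_mul_eq_one_left (by rw [← h]; ring)).symm, (eq_inv_of_mul_eq_one_left h).symm⟩

theorem ne_zero_of_prod {x y z : Ω} (h : x * y * z = 1) : x ≠ 0 ∧ y ≠ 0 ∧ z ≠ 0 := by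
  refine ⟨?_, ?_, ?_⟩ <;> rintro rfl <;> simp at h

theorem perm3 {x y z p q r : Ω} (h1 : x * y * z = 1) (h2 : p * q * r = 1)
    (h3 : x + y + z = p + q + r) (h4 : x⁻¹ + y⁻¹ + z⁻¹ = p⁻¹ + q⁻¹ + r⁻¹) :
    (x = p ∧ y = q) ∨ (x = p ∧ y = r) ∨ (x = q ∧ y = p) ∨ (x = q ∧ y = r) ∨
      (x = r ∧ y = p) ∨ (x = r ∧ y = q) := by
  obtain ⟨a1, a2, a3⟩ := inv_of_prod h1
  obtain ⟨b1, b2, b3⟩ := inv_of_prod h2
  rw [a1, a2, a3, b1, b2, b3] at h4
  have k : (x - p) * (x - q) * (x - r) = 0 := by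
    linear_combination x ^ 2 * h3 - x * h4 + h1 - h2
  simp only [mul_eq_zero, sub_eq_zero] at k
  rcases k with (rfl | rfl) | rfl
  · have : (y - q) * (y - r) = 0 := by linear_combination (y + x) * h3 - h4
    simp only [mul_eq_zero, sub_eq_zero] at this
    tauto
  · have : (y - p) * (y - r) = 0 := by linear_combination (y + x) * h3 - h4
    simp only [mul_eq_zero, sub_eq_zero] at this
    tauto
  · have : (y - p) * (y - q) = 0 := by linear_combination (y + x) * h3 - h4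
    simp only [mul_eq_zero, sub_eq_zero] at this
    tauto

theorem sum_sh (x y z : Ω) : (sh x y z).sum = (x + y + z) + (x⁻¹ + y⁻¹ + z⁻¹) := by
  simp only [sh, Multiset.insert_eq_cons, Multiset.sum_cons, Multiset.sum_singleton]
  ring

theorem uv_or {u v u' v' : Ω} (h1 : u + v = u' + v') (h2 : u * v = u' * v') :
    (u = u' ∧ v = v') ∨ (u = v' ∧ v = u') := by
  have : (u - u') * (u - v') = 0 := by linear_combination u * h1 - h2
  rcases mul_eq_zero.1 this with h | h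
  · left
    exact ⟨by linear_combination h, by linear_combination h1 - h⟩
  · right
    exact ⟨by linear_combination h, by linear_combination h1 - h⟩

theorem long_prod {a b c : Ω} (h : a * b * c = 1) : a * b⁻¹ * (b * c⁻¹) * (c * a⁻¹) = 1 := by
  obtain ⟨ha, hb, hc⟩ := ne_zero_of_prod h
  field_simp

variable [CharP Ω 3]

theorem uv_of_sh {x y z p q r : Ω} (h1 : x * y * z = 1) (h2 : p * q * r = 1)
    (h : sh x y z = sh p q r) :
    (x + y + z) * (x⁻¹ + y⁻¹ + z⁻¹) = (p + q + r) * (p⁻¹ + q⁻¹ + r⁻¹) := by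
  have k : ∀ x y z : Ω, x * y * z = 1 → ((sh x y z).map (· ^ 2)).sum =
      (sh x y z).sum ^ 2 - 2 * (sh x y z).sum - 2 * ((x + y + z) * (x⁻¹ + y⁻¹ + z⁻¹)) := by
    intro x y z h
    obtain ⟨a1, a2, a3⟩ := inv_of_prod h
    rw [sum_sh]
    simp only [sh, Multiset.insert_eq_cons, Multiset.map_cons, Multiset.map_singleton,
      Multiset.sum_cons, Multiset.sum_singleton, a1, a2, a3]
    linear_combination (-2 * (x + y + z)) * h
  have e := k x y z h1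
  rw [h, k p q r h2] at e
  grind

theorem sum_long {a b c : Ω} (h : a * b * c = 1) :
    (sh (a * b⁻¹) (b * c⁻¹) (c * a⁻¹)).sum = (a + b + c) * (a⁻¹ + b⁻¹ + c⁻¹) := by
  obtain ⟨ha, hb, hc⟩ := ne_zero_of_prod h
  rw [sum_sh]
  field_simp
  grind

theorem pow_eq_one_of_three {x : Ω} {n : ℕ} (h : x ^ ((3 : ℤ) * n) = 1) : x ^ n = 1 := by
  have : (x ^ n) ^ 3 = 1 := by
    rw [← pow_mul, ← zpow_natCast, ← h]
    congr 1
    push_cast
    ring
  have h2 : (x ^ n - 1) ^ 3 = 0 := by rw [sub_pow_char, this, one_pow, sub_self]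
  exact sub_eq_zero.1 (pow_eq_zero_iff (by norm_num) |>.1 h2)

theorem kill {a b : Ω} (ha : a ≠ 0) (hb : b ≠ 0) {s : ℕ} (i j k l n₁ n₂ n₃ n₄ : ℤ) (n : ℕ)
    (h1 : a ^ s = a ^ i * b ^ j) (h2 : b ^ s = a ^ k * b ^ l)
    (e1 : n₁ * (s - i) - n₂ * k = 3 * n) (e2 : n₂ * (s - l) - n₁ * j = 0)
    (e3 : n₃ * (s - i) - n₄ * k = 0) (e4 : n₄ * (s - l) - n₃ * j = 3 * n) :
    a ^ n = 1 ∧ b ^ n = 1 := by
  have g1 : a ^ ((s : ℤ) - i) = b ^ j := by
    rw [zpow_sub₀ ha, zpow_natCast, h1, mul_div_cancel_left₀ _ (zpow_ne_zero _ ha)]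
  have g2 : b ^ ((s : ℤ) - l) = a ^ k := by
    rw [zpow_sub₀ hb, zpow_natCast, h2, mul_div_cancel_right₀ _ (zpow_ne_zero _ hb)]
  have g : ∀ m m' : ℤ, a ^ (m * (s - i) - m' * k) * b ^ (m' * (s - l) - m * j) = 1 := by
    intro m m'
    rw [zpow_sub₀ ha, zpow_sub₀ hb, mul_comm m, mul_comm m', mul_comm m', mul_comm m, zpow_mul,
      zpow_mul, zpow_mul, zpow_mul, g1, g2]
    have := zpow_ne_zero m (zpow_ne_zero j hb)
    have := zpow_ne_zero m' (zpow_ne_zero k ha)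
    field_simp
  constructor
  · have := g n₁ n₂
    rw [e1, e2, zpow_zero, mul_one] at this
    exact pow_eq_one_of_three this
  · have := g n₃ n₄
    rw [e3, e4, zpow_zero, one_mul] at this
    exact pow_eq_one_of_three this

theorem torus_cases {a b c : Ω} {s q h : ℕ} (hs : s * s = 3 * q) (hodd : Odd s) (hq : q + 1 = 2 * h)
    (hsq : s ≤ q) (habc : a * b * c = 1)
    (e : sh (a ^ s) (b ^ s) (c ^ s) = sh (a * b⁻¹) (b * c⁻¹) (c * a⁻¹)) :
    ∃ n, (n = q - 1 ∨ n = h ∨ n = q + 1 - s ∨ n = q + 1 + s) ∧ a ^ n = 1 ∧ b ^ n = 1 := by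
  obtain ⟨ha, hb, hc⟩ := ne_zero_of_prod habc
  obtain ⟨a1, a2, a3⟩ := inv_of_prod habc
  obtain ⟨t, ht⟩ := hodd
  have h1 : a ^ s * b ^ s * c ^ s = 1 := by rw [← mul_pow, ← mul_pow, habc, one_pow]
  have h2 := long_prod habc
  have hq1 : 1 ≤ q := by omega
  have z1 : ((q - 1 : ℕ) : ℤ) = q - 1 := by omega
  have z2 : ((q + 1 - s : ℕ) : ℤ) = q + 1 - s := by omega
  have zs : (s : ℤ) * s = 3 * q := by exact_mod_cast hs
  have zt : (s : ℤ) = 2 * t + 1 := by exact_mod_cast ht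
  have zh : (q : ℤ) + 1 = 2 * h := by exact_mod_cast hq
  have zz : (2 : ℤ) * t * t + 2 * t + 2 = 3 * h := by nlinarith
  have hcc : c = (a * b)⁻¹ := by rw [← a3, inv_inv]
  have ep : a * b⁻¹ = a ^ (1 : ℤ) * b ^ (-1 : ℤ) := by simp
  have eq : b * c⁻¹ = a ^ (1 : ℤ) * b ^ (2 : ℤ) := by
    rw [a3, zpow_one, zpow_two]; ring
  have er : c * a⁻¹ = a ^ (-2 : ℤ) * b ^ (-1 : ℤ) := by
    rw [hcc, zpow_neg, zpow_neg, zpow_one, zpow_two]; field_simp
  have ep' : (a * b⁻¹)⁻¹ = a ^ (-1 : ℤ) * b ^ (1 : ℤ) := by simp [mul_comm]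
  have eq' : (b * c⁻¹)⁻¹ = a ^ (-1 : ℤ) * b ^ (-2 : ℤ) := by
    rw [eq, mul_inv, ← zpow_neg, ← zpow_neg]
  have er' : (c * a⁻¹)⁻¹ = a ^ (2 : ℤ) * b ^ (1 : ℤ) := by
    rw [er, mul_inv, ← zpow_neg, ← zpow_neg]; simp
  have gen : ∀ (i j k l : ℤ) (n : ℕ), a ^ s = a ^ i * b ^ j → b ^ s = a ^ k * b ^ l →
      (s - l) * (s - i) - j * k = 3 * n → a ^ n = 1 ∧ b ^ n = 1 := fun i j k l n u v w =>
    kill ha hb i j k l (s - l) j k (s - i) n u v w (by ring) (by ring) (by rw [← w]; ring)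
  have hsum := congrArg Multiset.sum e
  rw [sum_sh, sum_sh] at hsum
  rcases uv_or hsum (uv_of_sh h1 h2 e) with ⟨u1, u2⟩ | ⟨u1, u2⟩
  · rcases perm3 h1 h2 u1 u2 with ⟨x, y⟩ | ⟨x, y⟩ | ⟨x, y⟩ | ⟨x, y⟩ | ⟨x, y⟩ | ⟨x, y⟩
    · exact ⟨_, by tauto, gen _ _ _ _ (q + 1 - s) (x.trans ep) (y.trans eq)
        (by rw [z2]; linear_combination zs)⟩
    · exact ⟨_, by tauto, gen _ _ _ _ (q - 1) (x.trans ep) (y.trans er)
        (by rw [z1]; linear_combination zs)⟩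
    · exact ⟨_, by tauto, gen _ _ _ _ (q - 1) (x.trans eq) (y.trans ep)
        (by rw [z1]; linear_combination zs)⟩
    · exact ⟨_, by tauto, kill ha hb _ _ _ _ (t + 1) 1 (-1) t h (x.trans eq) (y.trans er)
        (by rw [zt]; linear_combination zz) (by rw [zt]; ring) (by rw [zt]; ring)
        (by rw [zt]; linear_combination zz)⟩
    · exact ⟨_, by tauto, gen _ _ _ _ (q + 1 + s) (x.trans er) (y.trans ep)
        (by push_cast; linear_combination zs)⟩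
    · exact ⟨_, by tauto, gen _ _ _ _ (q - 1) (x.trans er) (y.trans eq)
        (by rw [z1]; linear_combination zs)⟩
  · have h2' : (a * b⁻¹)⁻¹ * (b * c⁻¹)⁻¹ * (c * a⁻¹)⁻¹ = 1 := by
      rw [← mul_inv, ← mul_inv, h2, inv_one]
    rcases perm3 h1 h2' u1 (by simpa only [inv_inv] using u2) with
      ⟨x, y⟩ | ⟨x, y⟩ | ⟨x, y⟩ | ⟨x, y⟩ | ⟨x, y⟩ | ⟨x, y⟩
    · exact ⟨_, by tauto, gen _ _ _ _ (q + 1 + s) (x.trans ep') (y.trans eq')
        (by push_cast; linear_combination zs)⟩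
    · exact ⟨_, by tauto, gen _ _ _ _ (q - 1) (x.trans ep') (y.trans er')
        (by rw [z1]; linear_combination zs)⟩
    · exact ⟨_, by tauto, gen _ _ _ _ (q - 1) (x.trans eq') (y.trans ep')
        (by rw [z1]; linear_combination zs)⟩
    · exact ⟨_, by tauto, kill ha hb _ _ _ _ t (-1) 1 (t + 1) h (x.trans eq') (y.trans er')
        (by rw [zt]; linear_combination zz) (by rw [zt]; ring) (by rw [zt]; ring)
        (by rw [zt]; linear_combination zz)⟩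
    · exact ⟨_, by tauto, gen _ _ _ _ (q + 1 - s) (x.trans er') (y.trans ep')
        (by rw [z2]; linear_combination zs)⟩
    · exact ⟨_, by tauto, gen _ _ _ _ (q - 1) (x.trans er') (y.trans eq')
        (by rw [z1]; linear_combination zs)⟩

omit [CharP Ω 3] in
theorem sq_of_sq_aux (ψ : Ω →+* Ω) {a b c : Ω} (habc : a * b * c = 1)
    (e : ∀ x ∈ sh a b c, ψ x ∈ sh (a * b⁻¹) (b * c⁻¹) (c * a⁻¹)) (hc : c * c = 1) :
    a * a = 1 ∧ b * b = 1 := by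
  obtain ⟨a1, a2, a3⟩ := inv_of_prod habc
  have h1 : ψ c = c := by rcases mul_self_eq_one_iff.1 hc with rfl | rfl <;> simp
  have h2 := e c (by simp [sh])
  rw [h1, mem_sh] at h2
  simp only [mul_inv, inv_inv, a1, a2, a3] at h2
  rcases h2 with h | h | h | h | h | h <;> constructor <;> grind

omit [CharP Ω 3] in
theorem sh_rot (a b c : Ω) : sh a b c = sh b c a := by
  rw [sh_swap12, sh_swap23]

omit [CharP Ω 3] in
theorem nodup_or (ψ : Ω →+* Ω) {a b c : Ω} (habc : a * b * c = 1)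
    (e : sh (ψ a) (ψ b) (ψ c) = sh (a * b⁻¹) (b * c⁻¹) (c * a⁻¹)) :
    (1 ::ₘ sh a b c).Nodup ∨ (a * a = 1 ∧ b * b = 1 ∧ c * c = 1) := by
  obtain ⟨ha, hb, hc⟩ := ne_zero_of_prod habc
  have e' : ∀ x ∈ sh a b c, ψ x ∈ sh (a * b⁻¹) (b * c⁻¹) (c * a⁻¹) := by
    intro x hx
    rw [← e, ← sh_map]
    exact Multiset.mem_map_of_mem _ hx
  by_cases h3 : c * c = 1
  · exact Or.inr ⟨(sq_of_sq_aux ψ habc e' h3).1, (sq_of_sq_aux ψ habc e' h3).2, h3⟩
  by_cases h1 : a * a = 1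
  · have := sq_of_sq_aux ψ (a := b) (b := c) (c := a) (by rw [← habc]; ring)
      (by rw [← sh_rot, ← sh_rot (a * b⁻¹)]; exact e') h1
    exact absurd this.2 h3
  by_cases h2 : b * b = 1
  · have := sq_of_sq_aux ψ (a := c) (b := a) (c := b) (by rw [← habc]; ring)
      (by rw [sh_rot, sh_rot (c * a⁻¹)]; exact e') h2
    exact absurd this.1 h3
  left
  have hl : (1 : Ω) ∉ sh (a * b⁻¹) (b * c⁻¹) (c * a⁻¹) := by
    rw [← e, ← sh_map]
    intro h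
    obtain ⟨x, hx, hx1⟩ := Multiset.mem_map.1 h
    have : x = 1 := ψ.injective (by rw [hx1, map_one])
    subst this
    rw [mem_sh] at hx
    rcases hx with h | h | h | h | h | h
    · exact h1 (by rw [← h, mul_one])
    · exact h1 (by rw [← inv_inv a, ← h]; simp)
    · exact h2 (by rw [← h, mul_one])
    · exact h2 (by rw [← inv_inv b, ← h]; simp)
    · exact h3 (by rw [← h, mul_one])
    · exact h3 (by rw [← inv_inv c, ← h]; simp)
  have hab : a ≠ b := by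
    rintro rfl
    exact hl (by simp [sh, ha])
  have hbc : b ≠ c := by
    rintro rfl
    exact hl (by simp [sh, hb])
  have hca : c ≠ a := by
    rintro rfl
    exact hl (by simp [sh, hc])
  have ia := mul_inv_cancel₀ ha
  have ib := mul_inv_cancel₀ hb
  have ic := mul_inv_cancel₀ hc
  simp only [sh, Multiset.insert_eq_cons, Multiset.nodup_cons, Multiset.mem_cons,
    Multiset.mem_singleton, Multiset.nodup_singleton, not_or, and_true]
  generalize a⁻¹ = a', b⁻¹ = b', c⁻¹ = c' at ia ib ic ⊢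
  refine ⟨⟨?_, ?_, ?_, ?_, ?_, ?_⟩, ⟨?_, ?_, ?_, ?_, ?_⟩, ⟨?_, ?_, ?_, ?_⟩, ⟨?_, ?_, ?_⟩,
    ⟨?_, ?_⟩, ?_⟩ <;> intro h <;> grind

/-- the relations for an explicitly given torus element -/
theorem explicit_torus (ψ : Ω →+* Ω) {a b c : Ω} (habc : a * b * c = 1)
    (h1 : ψ (a + b + c) = a * b⁻¹ + b * c⁻¹ + c * a⁻¹)
    (h2 : ψ (a⁻¹ + b⁻¹ + c⁻¹) = (a * b⁻¹)⁻¹ + (b * c⁻¹)⁻¹ + (c * a⁻¹)⁻¹) :
    ψ (sh a b c).sum = (a + b + c) * (a⁻¹ + b⁻¹ + c⁻¹) ∧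
      ψ (ψ (sh a b c).sum) = (sh a b c).sum ^ 3 := by
  have e : ψ (sh a b c).sum = (a + b + c) * (a⁻¹ + b⁻¹ + c⁻¹) := by
    rw [sum_sh, map_add, h1, h2, ← sum_sh, sum_long habc]
  refine ⟨e, ?_⟩
  obtain ⟨a1, a2, a3⟩ := inv_of_prod habc
  rw [e, map_mul, h1, h2, sum_sh]
  simp only [mul_inv, inv_inv, a1, a2, a3]
  grind

theorem mem_of_trace (ψ : Ω →+* Ω) {a b c a' b' c' : Ω} (habc : a * b * c = 1)
    (habc' : a' * b' * c' = 1)
    (e : sh (ψ a) (ψ b) (ψ c) = sh (a * b⁻¹) (b * c⁻¹) (c * a⁻¹))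
    (e' : ψ (sh a' b' c').sum = (a' + b' + c') * (a'⁻¹ + b'⁻¹ + c'⁻¹))
    (ht : (sh a b c).sum = (sh a' b' c').sum) : a' ∈ sh a b c := by
  have h1 : (a + b + c) * (a⁻¹ + b⁻¹ + c⁻¹) = (a' + b' + c') * (a'⁻¹ + b'⁻¹ + c'⁻¹) := by
    rw [← e', ← ht, map_multiset_sum, sh_map, e, sum_long habc]
  rw [sum_sh, sum_sh] at ht
  rw [mem_sh]
  rcases uv_or ht.symm h1.symm with ⟨u1, u2⟩ | ⟨u1, u2⟩
  · have := perm3 habc' habc u1 u2
    tauto
  · have := perm3 habc' (p := a⁻¹) (q := b⁻¹) (r := c⁻¹)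
      (by rw [← mul_inv, ← mul_inv, habc, inv_one]) u1 (by simpa only [inv_inv] using u2)
    tauto

end Cfsg.Agent.Spec.Ree
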