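import Cfsg.Agent.Spec.Ree2
import Cfsg.Agent.Spec.Ree4

/-!
The spectrum of the Ree group `²G₂(q)`.
-/

set_option autoImplicit false

namespace Cfsg.Agent.Spec.Ree

open Matrix Polynomial Cfsg.Agent.Spec.PR Cfsg.Lie

theorem pow_six_of_eig {K : Type*} [Field K] [CharP K 3] {A S : Matrix (Fin 7) (Fin 7) K}
    (hS : S * S = 1) (hSt : Sᵀ = S) (h : Aᵀ * S * A = S)
    (he : eig A = {1, 1, 1, -1, -1, -1, -1}) : A ^ 6 = 1 := by
  classical
  have h0 : (A - 1) ^ 3 * (A + 1) ^ 4 = 0 := by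
    have := aeval_eq_zero_of_eig_le A ((X - C 1) ^ 3 * (X - C (-1)) ^ 4)
      (mul_ne_zero (pow_ne_zero _ (X_sub_C_ne_zero _)) (pow_ne_zero _ (X_sub_C_ne_zero _))) (by
        rw [Polynomial.map_mul, Polynomial.map_pow, Polynomial.map_pow, Polynomial.map_sub,
          Polynomial.map_sub, map_X, map_C, map_C, roots_mul (mul_ne_zero
            (pow_ne_zero _ (X_sub_C_ne_zero _)) (pow_ne_zero _ (X_sub_C_ne_zero _))), roots_pow,
          roots_pow, roots_X_sub_C, roots_X_sub_C, he, map_neg, map_one]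
        exact le_of_eq rfl)
    simpa using this
  haveI : CharP (Matrix (Fin 7) (Fin 7) K) 3 := inferInstance
  have c1 : Commute (A - 1) (A + 1) := by
    change (A - 1) * (A + 1) = (A + 1) * (A - 1)
    noncomm_ring
  have hZ : A ^ 6 - 1 = (A - 1) ^ 3 * (A + 1) ^ 3 := by
    rw [← c1.mul_pow]
    have : (A - 1) * (A + 1) = A ^ 2 - 1 := by noncomm_ring
    rw [this, sub_pow_char_of_commute _ (Commute.one_right _), ← pow_mul, one_pow]
  by_contra hne
  set Z := A ^ 6 - 1 with hZd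
  have hZ0 : Z ≠ 0 := sub_ne_zero.2 hne
  have h1 : Z * (A + 1) = 0 := by rw [hZ, Matrix.mul_assoc, ← pow_succ, h0]
  have h2 : Z * A = -Z := by
    rw [mul_add, mul_one] at h1
    exact eq_neg_of_add_eq_zero_left h1
  have h3 : Z * A ^ 2 = Z := by rw [pow_two, ← Matrix.mul_assoc, h2, neg_mul, h2, neg_neg]
  have h4 : Z * Z = 0 := by
    have : Z * A ^ 6 = Z := by
      rw [show 6 = 2 + 2 + 2 by rfl, pow_add, pow_add, ← Matrix.mul_assoc, ← Matrix.mul_assoc, h3,
        h3, h3]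
    nth_rewrite 2 [hZd]
    rw [mul_sub, this, mul_one, sub_self]
  have h5 : ∀ n, (A ^ n)ᵀ * S * A ^ n = S := by
    intro n
    induction n with
    | zero => simp
    | succ n ih =>
      rw [pow_succ, transpose_mul]
      calc _ = Aᵀ * ((A ^ n)ᵀ * S * A ^ n) * A := by simp only [Matrix.mul_assoc]
        _ = S := by rw [ih, h]
  have h6 : Zᵀ * S + S * Z + Zᵀ * S * Z = 0 := by
    have := h5 6
    rw [show A ^ 6 = 1 + Z by rw [hZd]; abel, transpose_add, transpose_one] at this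
    have e : (1 + Zᵀ) * S * (1 + Z) = S + (Zᵀ * S + S * Z + Zᵀ * S * Z) := by noncomm_ring
    rw [e] at this
    exact add_eq_left.1 this
  have h7 : Zᵀ * S * Z = 0 := by
    have := congrArg (· * Z) h6
    simp only [add_mul, Matrix.mul_assoc, h4, mul_zero, add_zero, zero_mul] at this
    rw [Matrix.mul_assoc, this]
  rw [h7, add_zero] at h6
  obtain ⟨v, hv⟩ : ∃ v, Z *ᵥ v ≠ 0 := by
    by_contra hc
    push Not at hc
    exact hZ0 (by ext i j; simpa using congrFun (hc (Pi.single j 1)) i)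
  have skew : ∀ x y : Fin 7 → K, x ⬝ᵥ (S *ᵥ (Z *ᵥ y)) = -(y ⬝ᵥ (S *ᵥ (Z *ᵥ x))) := by
    intro x y
    have e1 : S * Z = -(Zᵀ * S) := eq_neg_of_add_eq_zero_right h6
    rw [mulVec_mulVec, e1, neg_mulVec, dotProduct_neg, ← mulVec_mulVec, dotProduct_mulVec,
      vecMul_transpose, dotProduct_mulVec, ← mulVec_transpose, hSt, dotProduct_comm]
  obtain ⟨w, hw⟩ : ∃ w, ∀ a : K, Z *ᵥ w ≠ a • (Z *ᵥ v) := by
    by_contra hc
    push Not at hc
    have e0 : v ⬝ᵥ (S *ᵥ (Z *ᵥ v)) = 0 := by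
      have := skew v v
      grind
    have e1 : ∀ w, w ⬝ᵥ (S *ᵥ (Z *ᵥ v)) = 0 := by
      intro w
      obtain ⟨a, ha⟩ := hc w
      rw [skew, ha, mulVec_smul, dotProduct_smul, e0]
      simp
    have e2 : S *ᵥ (Z *ᵥ v) = 0 := by
      ext i
      simpa using e1 (Pi.single i 1)
    apply hv
    rw [← one_mulVec (Z *ᵥ v), ← hS, ← mulVec_mulVec, e2, mulVec_zero]
  have hAZ : A * Z = -Z := by
    rw [← h2]
    exact ((Commute.refl A).pow_right 6).sub_right (Commute.one_right A)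
  have n1 : -A - 1 = -(A + 1) := by abel
  have e3 : (-A - 1) ^ 3 *ᵥ ((A - 1) ^ 3 *ᵥ (-v)) = Z *ᵥ v := by
    rw [n1, mulVec_mulVec, Odd.neg_pow (by decide), neg_mul, ← (c1.pow_pow 3 3).eq, ← hZ,
      neg_mulVec, mulVec_neg, neg_neg]
  have := count_one_eig_ge (A := -A) (r := 3) (w := (A - 1) ^ 3 *ᵥ (-v)) (u := Z *ᵥ w)
    (by rwa [e3]) (by
      rw [n1, mulVec_mulVec, Even.neg_pow (by decide), ← (c1.pow_pow 3 _).eq, h0, zero_mulVec])
    (by rw [mulVec_mulVec, neg_mul, hAZ, neg_neg]) (by rwa [e3])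
  rw [eig_neg, he] at this
  have hn : (-1 : AlgebraicClosure K) ≠ 1 := by grind
  simp [hn, hn.symm] at this

variable {K : Type*} [Field K] [Fintype K] {m : ℕ}

theorem charP_three (hK : Fintype.card K = 3 ^ (2 * m + 1)) : CharP K 3 :=
  haveI : Fact (Nat.Prime 3) := ⟨Nat.prime_three⟩
  charP_of_card_eq_prime_pow hK

variable [CharP K 3]

theorem good_mem (hK : Fintype.card K = 3 ^ (2 * m + 1)) {g : GL chevG2.Idx K}
    (hg : g ∈ twistedG2 K (3 ^ m)) :
    Good ((g : Matrix _ _ K).submatrix epsE epsE) ∧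
      ((g : Matrix _ _ K).submatrix epsE epsE).toBlocks₂₂ =
        (((g : Matrix _ _ K).submatrix epsE epsE).toBlocks₁₁).map
          (iterateFrobenius K 3 (m + 1)) := by
  classical
  let P : GL chevG2.Idx K → Prop := fun g => Good ((g : Matrix _ _ K).submatrix epsE epsE) ∧
      ((g : Matrix _ _ K).submatrix epsE epsE).toBlocks₂₂ =
        (((g : Matrix _ _ K).submatrix epsE epsE).toBlocks₁₁).map (iterateFrobenius K 3 (m + 1))
  have P1 : P 1 := by
    simp only [P, Units.val_one, submatrix_one_equiv, blk11_one, blk22_one]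
    exact ⟨Good.one, (Matrix.map_one _ (map_zero _) (map_one _)).symm⟩
  have Pm : ∀ x y, P x → P y → P (x * y) := by
    intro x y hx hy
    simp only [P, Units.val_mul, ← submatrix_mul_equiv _ _ _ epsE] at hx hy ⊢
    exact ⟨hx.1.mul hy.1, by
      rw [blk22_mul hx.1.low, blk11_mul hy.1.low, Matrix.map_mul, hx.2, hy.2]⟩
  have Pp : ∀ x, P x → ∀ n, P (x ^ n) := by
    intro x hx n
    induction n with
    | zero => rw [pow_zero]; exact P1
    | succ n ih => rw [pow_succ]; exact Pm _ _ ih hx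
  change P g
  refine Subgroup.closure_induction (p := fun g _ => P g) ?_ P1 (fun x y _ _ => Pm x y) ?_ hg
  · rintro g ⟨w, hw, e⟩
    simp only [P, e]
    refine twist_gen (iterateFrobenius K 3 (m + 1)) (fun t => ?_) (fun t => ?_) hw
    · rw [iterateFrobenius_def, ← pow_mul, ← pow_add, show m + (m + 1) = 2 * m + 1 by ring, ← hK,
        FiniteField.pow_card]
    · rw [iterateFrobenius_def, ← pow_mul, pow_succ]
  · intro x _ hx
    have : x⁻¹ = x ^ (orderOf x - 1) := by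
      rw [inv_eq_iff_mul_eq_one, ← pow_succ', Nat.sub_add_cancel (orderOf_pos x), pow_orderOf_eq_one]
    rw [this]
    exact Pp x hx _

/-- the 7-dimensional representation -/
noncomputable def rho (hK : Fintype.card K = 3 ^ (2 * m + 1)) :
    twistedG2 K (3 ^ m) →* Matrix (Fin 7) (Fin 7) K where
  toFun g := (((g : GL chevG2.Idx K) : Matrix _ _ K).submatrix epsE epsE).toBlocks₁₁
  map_one' := by simp [blk11_one]
  map_mul' g h := by
    rw [← blk11_mul (good_mem hK h.2).1.low, submatrix_mul_equiv]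
    rfl

theorem rho_eq_one (hK : Fintype.card K = 3 ^ (2 * m + 1)) {g : twistedG2 K (3 ^ m)}
    (h : rho hK g = 1) : g = 1 := by
  have := (good_mem hK g.2).1.eq_one Qm_mul_Pm h
  refine Subtype.ext (Units.ext ?_)
  have e := congrArg (fun M => M.submatrix epsE.symm epsE.symm) this
  simpa using e

theorem orderOf_dvd_iff_rho (hK : Fintype.card K = 3 ^ (2 * m + 1)) (g : twistedG2 K (3 ^ m))
    (n : ℕ) : orderOf g ∣ n ↔ rho hK g ^ n = 1 := by
  rw [orderOf_dvd_iff_pow_eq_one, ← map_pow]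
  exact ⟨fun h => by rw [h, map_one], rho_eq_one hK⟩

theorem rho_orth (hK : Fintype.card K = 3 ^ (2 * m + 1)) (g : twistedG2 K (3 ^ m)) :
    (rho hK g)ᵀ * Sm K * rho hK g = Sm K := (good_mem hK g.2).1.orth

theorem psi_psi (hK : Fintype.card K = 3 ^ (2 * m + 1)) (t : K) :
    iterateFrobenius (AlgebraicClosure K) 3 (m + 1)
      (iterateFrobenius (AlgebraicClosure K) 3 (m + 1) (algebraMap K _ t)) =
        algebraMap K _ t ^ 3 := by
  rw [iterateFrobenius_def, iterateFrobenius_def, ← pow_mul, ← pow_add,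
    show m + 1 + (m + 1) = 2 * m + 1 + 1 by ring, pow_succ, ← hK, pow_mul, ← map_pow,
    FiniteField.pow_card]

theorem eig_rho (hK : Fintype.card K = 3 ^ (2 * m + 1)) (g : twistedG2 K (3 ^ m)) :
    ∃ a b c : AlgebraicClosure K, a * b * c = 1 ∧ eig (rho hK g) = 1 ::ₘ sh a b c ∧
      sh (iterateFrobenius _ 3 (m + 1) a) (iterateFrobenius _ 3 (m + 1) b)
        (iterateFrobenius _ 3 (m + 1) c) = sh (a * b⁻¹) (b * c⁻¹) (c * a⁻¹) := by
  have hinv : Sm K * (rho hK g)ᵀ * Sm K * rho hK g = 1 := by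
    rw [Matrix.mul_assoc, Matrix.mul_assoc, ← Matrix.mul_assoc _ (Sm K), rho_orth, Sm_mul_Sm]
  have hinv' := mul_eq_one_comm.1 hinv
  refine structure_thm _ (by rw [eig_card]; rfl) (fun x hx => ne_zero_of_mem_eig hinv' hx) ?_ ?_ ?_
  · rw [← eig_inv hinv', eig_conj Sm_mul_Sm rfl, eig_transpose]
  · rw [sum_eig, psi_psi hK]
  · have := (good_mem hK g.2).1.eig_L2
    rw [(good_mem hK g.2).2, eig_L2,
      eig_map _ _ (iterateFrobenius (AlgebraicClosure K) 3 (m + 1))
        (fun x => by simp [iterateFrobenius_def])] at this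
    exact this

/-- the spectrum of the Ree group -/
def ReeSet (q s : ℕ) : Set ℕ :=
  {n | n ∣ 6 ∨ n ∣ 9 ∨ n ∣ q - 1 ∨ n ∣ (q + 1) / 2 ∨ n ∣ q + 1 - s ∨ n ∣ q + 1 + s}

theorem arith (m : ℕ) : 3 ^ (m + 1) * 3 ^ (m + 1) = 3 * 3 ^ (2 * m + 1) ∧ Odd (3 ^ (m + 1)) ∧
    3 ^ (2 * m + 1) + 1 = 2 * ((3 ^ (2 * m + 1) + 1) / 2) ∧ 3 ^ (m + 1) ≤ 3 ^ (2 * m + 1) := by
  refine ⟨by ring, Odd.pow (by decide), ?_, Nat.pow_le_pow_right (by norm_num) (by omega)⟩
  have : Odd (3 ^ (2 * m + 1)) := Odd.pow (by decide)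
  obtain ⟨k, hk⟩ := this
  omega

theorem orderOf_mem (hK : Fintype.card K = 3 ^ (2 * m + 1)) (g : twistedG2 K (3 ^ m)) :
    orderOf g ∈ ReeSet (3 ^ (2 * m + 1)) (3 ^ (m + 1)) := by
  classical
  obtain ⟨a, b, c, habc, he, hs⟩ := eig_rho hK g
  obtain ⟨z1, z2, z3, z4⟩ := arith m
  have z5 : 3 ≤ 3 ^ (2 * m + 1) := Nat.le_self_pow (by omega) 3
  simp only [ReeSet, Set.mem_setOf_eq, orderOf_dvd_iff_rho hK]
  rcases nodup_or _ habc hs with h | ⟨h1, h2, h3⟩
  · obtain ⟨n, hn, ha, hb⟩ := torus_cases z1 z2 z3 z4 habc hs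
    have hc : c ^ n = 1 := by
      have := congrArg (· ^ n) habc
      simpa [mul_pow, ha, hb] using this
    have hn0 : n ≠ 0 := by omega
    have : rho hK g ^ n = 1 := by
      have := pow_eq_of_eig_nodup (rho hK g) hn0 1 (fun x hx => by
        rw [he, Multiset.mem_cons, mem_sh] at hx
        rcases hx with rfl | rfl | rfl | rfl | rfl | rfl | rfl <;> simp [ha, hb, hc]) (he ▸ h)
      simpa using this
    rcases hn with rfl | rfl | rfl | rfl <;> tauto
  · have h6 : eig (rho hK g) = {1, 1, 1, -1, -1, -1, -1} → rho hK g ^ 6 = 1 :=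
      pow_six_of_eig Sm_mul_Sm Sm_transpose (rho_orth hK g)
    have hn : (-1 : AlgebraicClosure K) ≠ 1 := by grind
    rcases mul_self_eq_one_iff.1 h1 with rfl | rfl <;>
      rcases mul_self_eq_one_iff.1 h2 with rfl | rfl <;>
      rcases mul_self_eq_one_iff.1 h3 with rfl | rfl
    · right; left
      have := pow_eq_one_of_eig 3 (rho hK g) one_ne_zero 2 (fun x hx => by
        rw [he, Multiset.mem_cons, mem_sh] at hx
        simpa using hx) (fun x => (count_eig_le _ x).trans (by simp))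
      simpa using this
    all_goals first
      | exact absurd (by simpa using habc) hn
      | (left; refine h6 ?_; rw [he]
         simp only [sh, inv_one, inv_neg, Multiset.insert_eq_cons, ← Multiset.singleton_add]
         try abel)

end Cfsg.Agent.Spec.Ree
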