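import Cfsg.Agent.Spec.Ree5

/-!
Existence of elements of the Ree group `²G₂(q)` of all admissible orders.
-/

set_option autoImplicit false

namespace Cfsg.Agent.Spec.Ree

open Matrix Polynomial Cfsg.Agent.Spec.PR Cfsg.Lie

def cU (a b c : ℕ) : PM := wordA (parU (pcst a) (pcst b) (pcst c) (pcst a) (pcst b) (pcst c))
def cV (a b c : ℕ) : PM := wordA (parV (pcst a) (pcst b) (pcst c) (pcst a) (pcst b) (pcst c))
def vU : PM := wordA (parU (pcst 0) (pcst 0) (pvar 5) (pcst 0) (pcst 0) (pvar 13))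

theorem tr1_ok : peq (mtrace 7 (mulL 7 vU (cV 1 0 0))) [(1, 1), (5, 2), (25, 2)] = true := by
  decide +kernel

theorem tr2_ok : peq (mtrace 7 (mulL 7 vU (mulL 7 (cV 0 0 1) (cU 1 1 2)))) [(1, 2), (25, 1)] =
    true := by decide +kernel

def g9 : List (List ℕ) := [[1,1,0,0,2,2,1],[0,1,1,1,2,0,2],[0,0,1,1,2,0,1],[0,0,0,1,1,0,0],[0,0,0,0,1,2,1],[0,0,0,0,0,1,2],[0,0,0,0,0,0,1]]
def g6 : List (List ℕ) := [[2,0,1,1,1,2,2],[1,1,2,0,1,0,1],[1,2,1,1,0,1,0],[1,1,1,1,1,0,2],[1,0,0,0,1,0,0],[0,2,0,1,0,1,0],[2,0,2,0,2,0,1]]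
def g62 : List (List ℕ) := [[2,1,2,0,2,1,2],[2,2,1,0,2,1,1],[0,1,1,1,1,1,0],[1,1,0,0,2,0,1],[0,0,1,1,2,2,2],[0,2,2,2,0,1,1],[1,1,0,1,0,0,2]]

theorem g9_ok : meq 7 7 (cU 1 0 0) (cmat g9) = true := by decide +kernel

theorem g93_ok : peq (mulL 7 (cmat g9) (mulL 7 (cmat g9) (cmat g9)) 0 3) (pcst 1) = true := by
  decide +kernel

theorem g6_ok : meq 7 7 (mulL 7 (cU 0 0 1) (cV 0 1 0)) (cmat g6) = true := by decide +kernel

theorem g62_ok : meq 7 7 (mulL 7 (cmat g6) (cmat g6)) (cmat g62) = true := by decide +kernel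

theorem g66_ok : meq 7 7 (mulL 7 (cmat g62) (mulL 7 (cmat g62) (cmat g62))) mone = true := by
  decide +kernel

theorem g63_ok : peq (mulL 7 (cmat g62) (cmat g6) 0 1) (pcst 1) = true := by
  decide +kernel

variable {K : Type*} [Field K] [Fintype K] {m : ℕ} [CharP K 3]

theorem exists_gen (hK : Fintype.card K = 3 ^ (2 * m + 1)) {w : List (ℕ × K)}
    (hw : w ∈ g2Words K (3 ^ m)) : ∃ g : twistedG2 K (3 ^ m),
      rho hK g = ((chevG2.wordMat K w).submatrix epsE epsE).toBlocks₁₁ := by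
  obtain ⟨h1, h2⟩ := twist_gen (iterateFrobenius K 3 (m + 1)) (e := 3 ^ m) (fun t => by
    rw [iterateFrobenius_def, ← pow_mul, ← pow_add, show m + (m + 1) = 2 * m + 1 by ring, ← hK,
      FiniteField.pow_card]) (fun t => by rw [iterateFrobenius_def, ← pow_mul, pow_succ]) hw
  have hA : ((chevG2.wordMat K w).submatrix epsE epsE).toBlocks₁₁.det ≠ 0 := by
    intro h
    have := congrArg det h1.orth
    rw [det_mul, h, mul_zero] at this
    have h3 := congrArg det (Sm_mul_Sm (K := K))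
    rw [det_mul, ← this] at h3
    simp at h3
  have hd : (chevG2.wordMat K w).det ≠ 0 := by
    rw [← det_submatrix_equiv_self epsE, ← fromBlocks_toBlocks (submatrix _ _ _), h1.low,
      det_fromBlocks_zero₂₁, h2]
    refine mul_ne_zero hA ?_
    rw [← RingHom.mapMatrix_apply, ← RingHom.map_det]
    exact (_root_.map_ne_zero _).2 hA
  exact ⟨⟨GeneralLinearGroup.mkOfDetNeZero _ hd, Subgroup.subset_closure ⟨w, hw, rfl⟩⟩, rfl⟩

theorem exists_U (hK : Fintype.card K = 3 ^ (2 * m + 1)) (x : ℕ → K) {a b c A B C : Pol}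
    (ha : ev x a = ev x A ^ 3 ^ m) (hb : ev x b = ev x B ^ 3 ^ m) (hc : ev x c = ev x C ^ 3 ^ m) :
    ∃ g : twistedG2 K (3 ^ m), rho hK g = fmat n7 n7 x (wordA (parU a b c A B C)) := by
  obtain ⟨g, hg⟩ := exists_gen hK (w := reeWordU (3 ^ m) (ev x A) (ev x B) (ev x C))
    ⟨_, _, _, Or.inl rfl⟩
  refine ⟨g, ?_⟩
  rw [hg, ← blk11_word _ _ (parU_lt _ _ _ _ _ _), evW_parU, reeWordU_eq, ha, hb, hc]

theorem exists_V (hK : Fintype.card K = 3 ^ (2 * m + 1)) (x : ℕ → K) {a b c A B C : Pol}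
    (ha : ev x a = ev x A ^ 3 ^ m) (hb : ev x b = ev x B ^ 3 ^ m) (hc : ev x c = ev x C ^ 3 ^ m) :
    ∃ g : twistedG2 K (3 ^ m), rho hK g = fmat n7 n7 x (wordA (parV a b c A B C)) := by
  obtain ⟨g, hg⟩ := exists_gen hK (w := reeWordV (3 ^ m) (ev x A) (ev x B) (ev x C))
    ⟨_, _, _, Or.inr rfl⟩
  refine ⟨g, ?_⟩
  rw [hg, ← blk11_word _ _ (parV_lt _ _ _ _ _ _), evW_parV, reeWordV_eq, ha, hb, hc]

omit [Fintype K] in
theorem ev_pcst_pow (x : ℕ → K) (k : ℕ) : ev x (pcst k) = ev x (pcst k) ^ 3 ^ m := by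
  rw [ev_pcst]
  exact (map_natCast (iterateFrobenius K 3 m) k).symm

theorem exists_cU (hK : Fintype.card K = 3 ^ (2 * m + 1)) (x : ℕ → K) (a b c : ℕ) :
    ∃ g : twistedG2 K (3 ^ m), rho hK g = fmat n7 n7 x (cU a b c) :=
  exists_U hK x (ev_pcst_pow x a) (ev_pcst_pow x b) (ev_pcst_pow x c)

theorem exists_cV (hK : Fintype.card K = 3 ^ (2 * m + 1)) (x : ℕ → K) (a b c : ℕ) :
    ∃ g : twistedG2 K (3 ^ m), rho hK g = fmat n7 n7 x (cV a b c) :=
  exists_V hK x (ev_pcst_pow x a) (ev_pcst_pow x b) (ev_pcst_pow x c)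

theorem card_mod_eight (m : ℕ) : 3 ^ (2 * m + 1) % 8 = 3 := by
  rw [pow_succ, pow_mul, Nat.mul_mod, Nat.pow_mod]
  simp

theorem exists_trace (hK : Fintype.card K = 3 ^ (2 * m + 1)) (τ : K) :
    ∃ g : twistedG2 K (3 ^ m), (rho hK g).trace = τ := by
  classical
  have hU : ∀ c : K, ∃ g : twistedG2 K (3 ^ m),
      rho hK g = fmat n7 n7 (vars 0 0 c 0 0 (c ^ 3 ^ (m + 1))) vU := by
    intro c
    obtain ⟨-, -, e3, -, -, e6⟩ := ev_vars 0 0 c 0 0 (c ^ 3 ^ (m + 1))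
    refine exists_U hK _ (ev_pcst_pow _ 0) (ev_pcst_pow _ 0) ?_
    rw [e3, e6, ← pow_mul, ← pow_add, show m + 1 + m = 2 * m + 1 by ring, ← hK,
      FiniteField.pow_card]
  have m5 : ∀ c d : K, mono (vars 0 0 c 0 0 d) 5 = c := fun c d => by
    rw [mono_prime _ (by norm_num)]
    simp [vars]
  have m25 : ∀ c d : K, mono (vars 0 0 c 0 0 d) 25 = c * c := fun c d => by
    rw [show 25 = 5 * 5 by rfl, mono_mul, m5]
  have hsq : IsSquare (τ + 1) ∨ IsSquare (-(τ + 1)) := by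
    by_contra hc
    push Not at hc
    have h1 : ¬ IsSquare (-1 : K) := by
      rw [FiniteField.isSquare_neg_one_iff, hK]
      have := card_mod_eight m
      omega
    have h0 : -(τ + 1) ≠ 0 := fun e => hc.2 (e ▸ IsSquare.zero)
    apply hc.2
    rw [← quadraticChar_one_iff_isSquare h0, neg_eq_neg_one_mul, map_mul,
      quadraticChar_neg_one_iff_not_isSquare.2 h1, quadraticChar_neg_one_iff_not_isSquare.2 hc.1]
    norm_num
  rcases hsq with ⟨c, hc⟩ | ⟨c, hc⟩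
  · obtain ⟨g, hg⟩ := hU c
    obtain ⟨g1, hg1⟩ := exists_cV hK (vars 0 0 c 0 0 (c ^ 3 ^ (m + 1))) 0 0 1
    obtain ⟨g2, hg2⟩ := exists_cU hK (vars 0 0 c 0 0 (c ^ 3 ^ (m + 1))) 1 1 2
    refine ⟨g * (g1 * g2), ?_⟩
    rw [map_mul, map_mul, hg, hg1, hg2, ← fmat_mulL, ← fmat_mulL, trace_fmat,
      ev_eq_of_peq _ tr2_ok]
    simp only [ev_cons, ev_nil, mono_one, m25]
    grind
  · obtain ⟨g, hg⟩ := hU (c + 1)
    obtain ⟨g1, hg1⟩ := exists_cV hK (vars 0 0 (c + 1) 0 0 ((c + 1) ^ 3 ^ (m + 1))) 1 0 0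
    refine ⟨g * g1, ?_⟩
    rw [map_mul, hg, hg1, ← fmat_mulL, trace_fmat, ev_eq_of_peq _ tr1_ok]
    simp only [ev_cons, ev_nil, mono_one, m25, m5]
    grind

theorem exists_nine (hK : Fintype.card K = 3 ^ (2 * m + 1)) :
    ∃ g : twistedG2 K (3 ^ m), 9 ∣ orderOf g := by
  obtain ⟨g, hg⟩ := exists_cU hK (fun _ => 0) 1 0 0
  rw [fmat_eq_of_meq _ _ _ g9_ok] at hg
  have h3 : ¬ orderOf g ∣ 3 := by
    rw [orderOf_dvd_iff_rho hK, pow_three, hg, ← fmat_mulL, ← fmat_mulL]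
    intro h
    have := congrFun (congrFun h 0) 3
    rw [fmat_apply] at this
    have e := ev_eq_of_peq (fun _ => (0 : K)) g93_ok
    rw [ev_pcst] at e
    have e2 : ((1 : ℕ) : K) = 0 := e.symm.trans (this.trans (one_apply_ne (by decide)))
    grind
  have h9 : orderOf g ∣ 3 ^ 2 := by
    rw [orderOf_dvd_iff_rho hK]
    have hu : (rho hK g).IsUpperTriangular ∧ ∀ i, rho hK g i i = 1 := by
      rw [hg]
      constructor
      · intro i j hij
        have : ∀ i j : Fin 7, j < i → (g9.getD i []).getD j 0 = 0 := by decide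
        simp only [fmat_apply, cmat, ev_pcst]
        exact (congrArg Nat.cast (this i j hij)).trans Nat.cast_zero
      · intro i
        have : ∀ i : Fin 7, (g9.getD i []).getD i 0 = 1 := by decide
        simp only [fmat_apply, cmat, ev_pcst]
        exact (congrArg Nat.cast (this i)).trans Nat.cast_one
    classical
    have he := eig_of_triangular (A := rho hK g) (P := 1) (Q := 1)
      (T := (rho hK g).map (algebraMap K _)) (one_mul _) (by simp)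
      (fun i j hij => by rw [map_apply, hu.1 hij, map_zero])
    have := pow_eq_one_of_eig 3 (rho hK g) one_ne_zero 2 (fun x hx => by
      rw [he] at hx
      obtain ⟨i, -, rfl⟩ := Multiset.mem_map.1 hx
      simp [hu.2]) (fun x => (count_eig_le _ x).trans (by simp))
    simpa using this
  obtain ⟨k, hk, e⟩ := (Nat.dvd_prime_pow Nat.prime_three).1 h9
  refine ⟨g, ?_⟩
  rw [e] at h3 ⊢
  interval_cases k <;> simp_all

theorem exists_six (hK : Fintype.card K = 3 ^ (2 * m + 1)) :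
    ∃ g : twistedG2 K (3 ^ m), 6 ∣ orderOf g := by
  obtain ⟨g1, hg1⟩ := exists_cU hK (fun _ => 0) 0 0 1
  obtain ⟨g2, hg2⟩ := exists_cV hK (fun _ => 0) 0 1 0
  have hg : rho hK (g1 * g2) = fmat n7 n7 (fun _ => 0) (cmat g6) := by
    rw [map_mul, hg1, hg2, ← fmat_mulL, fmat_eq_of_meq _ _ _ g6_ok]
  have h2 : rho hK (g1 * g2) ^ 2 = fmat n7 n7 (fun _ => 0) (cmat g62) := by
    rw [pow_two, hg, ← fmat_mulL, fmat_eq_of_meq _ _ _ g62_ok]
  have h6 : orderOf (g1 * g2) ∣ 6 := by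
    rw [orderOf_dvd_iff_rho hK, show 6 = 2 * 3 by rfl, pow_mul, h2, pow_three, ← fmat_mulL,
      ← fmat_mulL, fmat_eq_of_meq _ _ _ g66_ok, fmat_mone _ Fin.val_injective]
  have n2 : ¬ orderOf (g1 * g2) ∣ 2 := by
    rw [orderOf_dvd_iff_rho hK, h2]
    intro h
    have := congrFun (congrFun h 0) 1
    rw [fmat_apply, cmat, ev_pcst, one_apply_ne (by decide)] at this
    have e2 : ((1 : ℕ) : K) = 0 := this
    grind
  have n3 : ¬ orderOf (g1 * g2) ∣ 3 := by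
    rw [orderOf_dvd_iff_rho hK, pow_succ, h2, hg, ← fmat_mulL]
    intro h
    have := congrFun (congrFun h 0) 1
    rw [fmat_apply] at this
    have e := ev_eq_of_peq (fun _ => (0 : K)) g63_ok
    rw [ev_pcst] at e
    have e2 : ((1 : ℕ) : K) = 0 := e.symm.trans (this.trans (one_apply_ne (by decide)))
    grind
  refine ⟨g1 * g2, ?_⟩
  have := Nat.le_of_dvd (by norm_num) h6
  generalize orderOf (g1 * g2) = k at *
  interval_cases k <;> simp_all

theorem exists_torus (hK : Fintype.card K = 3 ^ (2 * m + 1)) {a b c : AlgebraicClosure K}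
    (habc : a * b * c = 1)
    (h1 : a ^ 3 ^ (m + 1) + b ^ 3 ^ (m + 1) + c ^ 3 ^ (m + 1) = a * b⁻¹ + b * c⁻¹ + c * a⁻¹)
    (h2 : (a ^ 3 ^ (m + 1))⁻¹ + (b ^ 3 ^ (m + 1))⁻¹ + (c ^ 3 ^ (m + 1))⁻¹ =
      (a * b⁻¹)⁻¹ + (b * c⁻¹)⁻¹ + (c * a⁻¹)⁻¹) :
    ∃ g : twistedG2 K (3 ^ m), a ^ orderOf g = 1 := by
  classical
  obtain ⟨e1, e2⟩ := explicit_torus (iterateFrobenius _ 3 (m + 1)) habc
    (by simpa only [map_add, iterateFrobenius_def] using h1)
    (by simpa only [map_add, map_inv₀, iterateFrobenius_def] using h2)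
  have e3 : (sh a b c).sum ^ Fintype.card K = (sh a b c).sum := by
    rw [iterateFrobenius_def, iterateFrobenius_def, ← pow_mul, ← pow_add,
      show m + 1 + (m + 1) = 2 * m + 1 + 1 by ring, pow_succ, ← hK, pow_mul] at e2
    exact (frobenius (AlgebraicClosure K) 3).injective e2
  obtain ⟨t, ht⟩ : ∃ t : K, algebraMap K _ t = (sh a b c).sum := by
    by_contra hc
    push Not at hc
    have hq : 1 < Fintype.card K := Fintype.one_lt_card
    have hne := FiniteField.X_pow_card_sub_X_ne_zero (AlgebraicClosure K) hq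
    have hs : insert (sh a b c).sum (Finset.univ.image (algebraMap K (AlgebraicClosure K))) ⊆
        (X ^ Fintype.card K - X : (AlgebraicClosure K)[X]).roots.toFinset := by
      intro y hy
      rw [Multiset.mem_toFinset, mem_roots hne, IsRoot.def, eval_sub, eval_pow, eval_X,
        sub_eq_zero]
      rcases Finset.mem_insert.1 hy with rfl | hy
      · exact e3
      · obtain ⟨t, -, rfl⟩ := Finset.mem_image.1 hy
        rw [← map_pow, FiniteField.pow_card]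
    have h3 := (Finset.card_le_card hs).trans
      ((Multiset.toFinset_card_le _).trans (card_roots' _))
    rw [FiniteField.X_pow_card_sub_X_natDegree_eq _ hq, Finset.card_insert_of_notMem
      (by simpa using hc), Finset.card_image_of_injective _ (algebraMap K _).injective] at h3
    simp at h3
  obtain ⟨g, hg⟩ := exists_trace hK (1 + t)
  obtain ⟨a', b', c', h', he, hs⟩ := eig_rho hK g
  have h4 : (sh a' b' c').sum = (sh a b c).sum := by
    have := sum_eig (rho hK g)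
    rw [he, Multiset.sum_cons, hg, map_add, map_one, ht] at this
    exact add_left_cancel this
  have h5 : a ∈ eig (rho hK g) := by
    rw [he]
    exact Multiset.mem_cons_of_mem (mem_of_trace _ h' habc hs e1 h4)
  exact ⟨g, pow_eq_one_of_mem_eig h5 ((orderOf_dvd_iff_rho hK g _).1 dvd_rfl)⟩

theorem dvd_of_dvd_of_eq {a b c : ℤ} (h : a ∣ b) (e : b = c) : a ∣ c := e ▸ h

theorem exists_of_exps (hK : Fintype.card K = 3 ^ (2 * m + 1)) {n : ℕ} (hn : ¬ 3 ∣ n)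
    (i j : ℤ) (hi : IsCoprime i n)
    (h : ((n : ℤ) ∣ i * 3 ^ (m + 1) - (i - j) ∧ (n : ℤ) ∣ j * 3 ^ (m + 1) - (i + 2 * j)) ∨
      ((n : ℤ) ∣ i * 3 ^ (m + 1) - (i - j) ∧ (n : ℤ) ∣ j * 3 ^ (m + 1) - (-2 * i - j)) ∨
      ((n : ℤ) ∣ i * 3 ^ (m + 1) - (i + 2 * j) ∧ (n : ℤ) ∣ j * 3 ^ (m + 1) - (-2 * i - j)) ∨
      ((n : ℤ) ∣ i * 3 ^ (m + 1) - (-2 * i - j) ∧ (n : ℤ) ∣ j * 3 ^ (m + 1) - (i - j))) :
    ∃ g : twistedG2 K (3 ^ m), n ∣ orderOf g := by
  haveI : NeZero (n : AlgebraicClosure K) :=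
    ⟨by rwa [Ne, CharP.cast_eq_zero_iff (AlgebraicClosure K) 3]⟩
  haveI : NeZero n := ⟨by rintro rfl; simp at hn⟩
  obtain ⟨ζ, hζ⟩ := HasEnoughRootsOfUnity.exists_primitiveRoot (AlgebraicClosure K) n
  have h0 : ζ ≠ 0 := hζ.ne_zero (NeZero.ne n)
  have hc : ∀ x y : ℤ, (n : ℤ) ∣ x - y → ζ ^ x = ζ ^ y := by
    intro x y hxy
    rw [← sub_add_cancel x y, zpow_add₀ h0, (hζ.zpow_eq_one_iff_dvd _).2 hxy, one_mul]
  have hp : ∀ x : ℤ, (ζ ^ x) ^ 3 ^ (m + 1) = ζ ^ (x * 3 ^ (m + 1)) := by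
    intro x
    rw [_root_.zpow_mul, ← zpow_natCast]
    simp
  have e1 : ζ ^ i * (ζ ^ j)⁻¹ = ζ ^ (i - j) := by rw [zpow_sub₀ h0, div_eq_mul_inv]
  have e2 : ζ ^ j * (ζ ^ (-i - j))⁻¹ = ζ ^ (i + 2 * j) := by
    rw [← _root_.zpow_neg, ← zpow_add₀ h0]; congr 1; ring
  have e3 : ζ ^ (-i - j) * (ζ ^ i)⁻¹ = ζ ^ (-2 * i - j) := by
    rw [← _root_.zpow_neg, ← zpow_add₀ h0]; congr 1; ring
  obtain ⟨g, hg⟩ : ∃ g : twistedG2 K (3 ^ m), (ζ ^ i) ^ orderOf g = 1 := by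
    have habc : ζ ^ i * ζ ^ j * ζ ^ (-i - j) = 1 := by
      rw [← zpow_add₀ h0, ← zpow_add₀ h0]; simp
    rcases h with ⟨x, y⟩ | ⟨x, y⟩ | ⟨x, y⟩ | ⟨x, y⟩
    · have z := hc ((-i - j) * 3 ^ (m + 1)) (-2 * i - j)
        (dvd_of_dvd_of_eq (dvd_add x y).neg_right (by ring))
      refine exists_torus hK habc ?_ ?_ <;> rw [e1, e2, e3, hp, hp, hp, hc _ _ x, hc _ _ y, z]
    · have z := hc ((-i - j) * 3 ^ (m + 1)) (i + 2 * j)
        (dvd_of_dvd_of_eq (dvd_add x y).neg_right (by ring))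
      refine exists_torus hK habc ?_ ?_ <;> rw [e1, e2, e3, hp, hp, hp, hc _ _ x, hc _ _ y, z] <;>
        ring
    · have z := hc ((-i - j) * 3 ^ (m + 1)) (i - j)
        (dvd_of_dvd_of_eq (dvd_add x y).neg_right (by ring))
      refine exists_torus hK habc ?_ ?_ <;> rw [e1, e2, e3, hp, hp, hp, hc _ _ x, hc _ _ y, z] <;>
        ring
    · have z := hc ((-i - j) * 3 ^ (m + 1)) (i + 2 * j)
        (dvd_of_dvd_of_eq (dvd_add x y).neg_right (by ring))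
      refine exists_torus hK habc ?_ ?_ <;> rw [e1, e2, e3, hp, hp, hp, hc _ _ x, hc _ _ y, z] <;>
        ring
  refine ⟨g, ?_⟩
  rw [← zpow_natCast, ← _root_.zpow_mul, hζ.zpow_eq_one_iff_dvd] at hg
  exact Int.natCast_dvd_natCast.1 (hi.symm.dvd_of_dvd_mul_left hg)

theorem spec_ree (hK : Fintype.card K = 3 ^ (2 * m + 1)) :
    Set.range (orderOf : twistedG2 K (3 ^ m) → ℕ) = ReeSet (3 ^ (2 * m + 1)) (3 ^ (m + 1)) := by
  classical
  refine Set.Subset.antisymm (by rintro _ ⟨g, rfl⟩; exact orderOf_mem hK g) ?_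
  obtain ⟨z1, ⟨t, ht⟩, z3, z4⟩ := arith m
  have zs : (3 : ℤ) ^ (m + 1) * 3 ^ (m + 1) = 3 * 3 ^ (2 * m + 1) := by exact_mod_cast z1
  have zt : (3 : ℤ) ^ (m + 1) = 2 * t + 1 := by exact_mod_cast ht
  have d1 : 3 ∣ 3 ^ (2 * m + 1) := dvd_pow_self 3 (by omega)
  have d2 : 3 ∣ 3 ^ (m + 1) := dvd_pow_self 3 (by omega)
  have z5 : 3 ≤ 3 ^ (2 * m + 1) := Nat.le_self_pow (by omega) 3
  have fin : ∀ {k n : ℕ}, (∃ g : twistedG2 K (3 ^ m), k ∣ orderOf g) → n ∣ k →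
      n ∈ Set.range (orderOf : twistedG2 K (3 ^ m) → ℕ) := by
    rintro k n ⟨g, hg⟩ hn
    exact exists_orderOf_eq_of_dvd g (hn.trans hg)
  rintro n (h | h | h | h | h | h)
  · exact fin (exists_six hK) h
  · exact fin (exists_nine hK) h
  · refine fin (exists_of_exps hK (by omega) 1 (1 - 3 ^ (m + 1)) isCoprime_one_left
      (Or.inr (Or.inl ⟨⟨0, by ring⟩, ⟨-3, ?_⟩⟩))) h
    rw [Nat.cast_sub (by omega)]
    push_cast
    linear_combination -zs
  · refine fin (exists_of_exps hK (by omega) 1 t isCoprime_one_left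
      (Or.inr (Or.inr (Or.inl ⟨⟨0, by rw [zt]; ring⟩, ⟨3, ?_⟩⟩)))) h
    have z6 : (3 : ℤ) ^ (2 * m + 1) + 1 = 2 * ((3 ^ (2 * m + 1) + 1) / 2 : ℕ) := by
      exact_mod_cast z3
    rw [zt] at zs ⊢
    nlinarith
  · refine fin (exists_of_exps hK (by omega) 1 (1 - 3 ^ (m + 1)) isCoprime_one_left
      (Or.inl ⟨⟨0, by ring⟩, ⟨-3, ?_⟩⟩)) h
    rw [Nat.cast_sub (by omega)]
    push_cast
    linear_combination -zs
  · refine fin (exists_of_exps hK (by omega) 1 (-2 - 3 ^ (m + 1)) isCoprime_one_left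
      (Or.inr (Or.inr (Or.inr ⟨⟨0, by ring⟩, ⟨-3, ?_⟩⟩)))) h
    push_cast
    linear_combination -zs

end Cfsg.Agent.Spec.Ree
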